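import Mathlib

/-!
Groups generated by transvections (after McLaughlin): basic closure properties.
-/

set_option autoImplicit false

namespace Cfsg.Agent.H93.McL

open Module

variable {F V : Type*} [Field F] [AddCommGroup V] [Module F V]

/-- the transvection `x ↦ x + f x • v` belongs to `H` -/
def R (H : Subgroup (V ≃ₗ[F] V)) (v : V) (f : Dual F V) : Prop :=
  ∃ h : f v = 0, LinearEquiv.transvection h ∈ H

theorem tv_apply {v : V} {f : Dual F V} (h : f v = 0) (x : V) :
    LinearEquiv.transvection h x = x + f x • v := rfl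

variable {H : Subgroup (V ≃ₗ[F] V)}

theorem R.zero {v : V} {f : Dual F V} (h : R H v f) : f v = 0 := h.1

theorem R_zero_left (f : Dual F V) : R H 0 f := by
  refine ⟨f.map_zero, ?_⟩
  have : LinearEquiv.transvection (f.map_zero : f 0 = 0) = 1 := by
    ext x
    rw [tv_apply, smul_zero, add_zero]
    rfl
  rw [this]
  exact H.one_mem

theorem R_zero_right (v : V) : R H v (0 : Dual F V) := by
  refine ⟨rfl, ?_⟩
  have : LinearEquiv.transvection (rfl : (0 : Dual F V) v = 0) = 1 := by
    ext x
    rw [tv_apply, LinearMap.zero_apply, zero_smul, add_zero]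
    rfl
  rw [this]
  exact H.one_mem

theorem R_add_left {v w : V} {f : Dual F V} (h1 : R H v f) (h2 : R H w f) : R H (v + w) f := by
  obtain ⟨h1, m1⟩ := h1
  obtain ⟨h2, m2⟩ := h2
  have h3 : f (v + w) = 0 := by rw [map_add, h1, h2, add_zero]
  refine ⟨h3, ?_⟩
  have : LinearEquiv.transvection h3 = LinearEquiv.transvection h1 * LinearEquiv.transvection h2 := by
    ext x
    rw [tv_apply, LinearEquiv.mul_apply, tv_apply, tv_apply, map_add, map_smul, h2, smul_zero, add_zero, smul_add]
    abel
  rw [this]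
  exact H.mul_mem m1 m2

theorem R_add_right {v : V} {f g : Dual F V} (h1 : R H v f) (h2 : R H v g) : R H v (f + g) := by
  obtain ⟨h1, m1⟩ := h1
  obtain ⟨h2, m2⟩ := h2
  have h3 : (f + g) v = 0 := by rw [LinearMap.add_apply, h1, h2, add_zero]
  refine ⟨h3, ?_⟩
  have : LinearEquiv.transvection h3 = LinearEquiv.transvection h1 * LinearEquiv.transvection h2 := by
    ext x
    rw [tv_apply, LinearEquiv.mul_apply, tv_apply, tv_apply, map_add, map_smul, h1, smul_zero, add_zero, LinearMap.add_apply,
      add_smul]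
    abel
  rw [this]
  exact H.mul_mem m1 m2

theorem R_conj {k : V ≃ₗ[F] V} (hk : k ∈ H) {v : V} {f : Dual F V} (h : R H v f) :
    R H (k v) (f ∘ₗ (k.symm : V →ₗ[F] V)) := by
  obtain ⟨h1, m1⟩ := h
  have h3 : (f ∘ₗ (k.symm : V →ₗ[F] V)) (k v) = 0 := by
    simp [h1]
  refine ⟨h3, ?_⟩
  have : LinearEquiv.transvection h3 = k * LinearEquiv.transvection h1 * k⁻¹ := by
    ext x
    rw [tv_apply, LinearEquiv.mul_apply, LinearEquiv.mul_apply, tv_apply, map_add, map_smul]
    have e1 : k (k⁻¹ x) = x := k.apply_symm_apply x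
    rw [e1]
    rfl
  rw [this]
  exact H.mul_mem (H.mul_mem hk m1) (H.inv_mem hk)

/-- closed under scalars -/
def Scal (H : Subgroup (V ≃ₗ[F] V)) : Prop := ∀ (v : V) (f : Dual F V) (c : F), R H v f → R H v (c • f)

theorem R_smul_iff {v : V} {f : Dual F V} {c : F} : R H (c • v) f ↔ (c = 0 ∨ R H v (c • f)) := by
  constructor
  · intro h
    by_cases hc : c = 0
    · left; exact hc
    right
    obtain ⟨h1, m1⟩ := h
    have h2 : (c • f) v = 0 := by
      rw [LinearMap.smul_apply, smul_eq_mul]
      rw [map_smul, smul_eq_mul] at h1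
      exact h1
    refine ⟨h2, ?_⟩
    have : LinearEquiv.transvection h2 = LinearEquiv.transvection h1 := by
      ext x
      rw [tv_apply, tv_apply, LinearMap.smul_apply, smul_smul, smul_eq_mul, mul_comm]
    rw [this]; exact m1
  · rintro (rfl | h)
    · rw [zero_smul]; exact R_zero_left f
    · obtain ⟨h1, m1⟩ := h
      have h2 : f (c • v) = 0 := by
        rw [map_smul, smul_eq_mul]
        rw [LinearMap.smul_apply, smul_eq_mul] at h1
        exact h1
      refine ⟨h2, ?_⟩
      have : LinearEquiv.transvection h2 = LinearEquiv.transvection h1 := by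
        ext x
        rw [tv_apply, tv_apply, LinearMap.smul_apply, smul_smul, smul_eq_mul, mul_comm]
      rw [this]; exact m1

theorem R_smul_left (hsc : Scal H) {v : V} {f : Dual F V} (c : F) (h : R H v f) : R H (c • v) f :=
  R_smul_iff.2 (Or.inr (hsc v f c h))

theorem R_smul_cancel (hsc : Scal H) {v : V} {f : Dual F V} {c : F} (hc : c ≠ 0) (h : R H v (c • f)) : R H v f := by
  have := hsc v _ c⁻¹ h
  rwa [smul_smul, inv_mul_cancel₀ hc, one_smul] at this

/-- conjugating by a transvection -/
theorem R_tv {x y : V} {f g : Dual F V} (h1 : R H x f) (h2 : R H y g) : R H (y + f y • x) (g - g x • f) := by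
  have h3 := R_conj h1.2 h2
  rw [tv_apply] at h3
  convert h3 using 1
  ext z
  rw [LinearMap.comp_apply, LinearMap.sub_apply, LinearMap.smul_apply]
  have e1 : ((LinearEquiv.transvection h1.1).symm : V →ₗ[F] V) z = z - f z • x := by
    show (LinearEquiv.transvection h1.1).symm z = _
    rw [LinearEquiv.symm_apply_eq, tv_apply, map_sub, map_smul, h1.1, smul_zero, sub_zero, sub_add_cancel]
  rw [e1, map_sub, map_smul, smul_eq_mul, smul_eq_mul, mul_comm]

/-- one sided pairs -/
theorem R_comm (hsc : Scal H) {x y : V} {f g : Dual F V} (h1 : R H x f) (h2 : R H y g) (h3 : g x = 0) (h4 : f y ≠ 0) :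
    R H x g := by
  have h5 := R_tv h1 h2
  rw [h3, zero_smul, sub_zero] at h5
  have h6 : R H (-y) g := by
    have := R_smul_left hsc (-1) h2
    rwa [neg_smul, one_smul] at this
  have h7 := R_add_left h5 h6
  have h8 : y + f y • x + -y = f y • x := by abel
  rw [h8] at h7
  rcases R_smul_iff.1 h7 with h | h
  · exact absurd h h4
  · exact R_smul_cancel hsc h4 h

/-- the functionals `f` such that the transvection with centre `x` and axis `f` is in `H` -/
def Hs (hsc : Scal H) (x : V) : Submodule F (Dual F V) where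
  carrier := {f | R H x f}
  add_mem' h1 h2 := R_add_right h1 h2
  zero_mem' := R_zero_right x
  smul_mem' c f h := hsc x f c h

theorem mem_Hs (hsc : Scal H) {x : V} {f : Dual F V} : f ∈ Hs hsc x ↔ R H x f := Iff.rfl

/-- the intersection of the kernels of the functionals in `Hs x` -/
def A (H : Subgroup (V ≃ₗ[F] V)) (x : V) : Submodule F V where
  carrier := {y | ∀ f, R H x f → f y = 0}
  add_mem' h1 h2 f hf := by rw [map_add, h1 f hf, h2 f hf, add_zero]
  zero_mem' f _ := f.map_zero
  smul_mem' c y h f hf := by rw [map_smul, h f hf, smul_zero]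

theorem mem_A {x y : V} : y ∈ A H x ↔ ∀ f, R H x f → f y = 0 := Iff.rfl

theorem not_mem_A {x y : V} : y ∉ A H x ↔ ∃ f, R H x f ∧ f y ≠ 0 := by
  rw [mem_A]; push Not; rfl

theorem self_mem_A (x : V) : x ∈ A H x := fun _ hf => hf.1

/-- `x` is a centre -/
def IsCtr (H : Subgroup (V ≃ₗ[F] V)) (x : V) : Prop := x ≠ 0 ∧ ∃ f, R H x f ∧ f ≠ 0

theorem isCtr_of_R {x : V} {f : Dual F V} (hx : x ≠ 0) (h : R H x f) (hf : f ≠ 0) : IsCtr H x := ⟨hx, f, h, hf⟩

theorem isCtr_of_not_mem_A {x y : V} (hx : x ≠ 0) (h : y ∉ A H x) : IsCtr H x := by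
  obtain ⟨f, hf, hfy⟩ := not_mem_A.1 h
  exact ⟨hx, f, hf, fun h0 => hfy (by rw [h0]; rfl)⟩

theorem isCtr_conj {k : V ≃ₗ[F] V} (hk : k ∈ H) {x : V} (h : IsCtr H x) : IsCtr H (k x) := by
  obtain ⟨hx, f, hf, hf0⟩ := h
  refine ⟨?_, _, R_conj hk hf, ?_⟩
  · intro h
    apply hx
    exact k.injective (by rw [h, map_zero])
  · intro h
    apply hf0
    ext z
    have := LinearMap.congr_fun h (k z)
    simpa using this

theorem isCtr_smul (hsc : Scal H) {x : V} (h : IsCtr H x) {c : F} (hc : c ≠ 0) : IsCtr H (c • x) := by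
  obtain ⟨hx, f, hf, hf0⟩ := h
  exact ⟨smul_ne_zero hc hx, f, R_smul_left hsc c hf, hf0⟩

/-- combinations of non-perpendicular centres are centres -/
theorem isCtr_comb (hsc : Scal H) {x y : V} (hx : IsCtr H x) (hy : IsCtr H y) (h : y ∉ A H x) {a b : F} (hab : a ≠ 0 ∨ b ≠ 0) :
    IsCtr H (a • x + b • y) := by
  by_cases hb : b = 0
  · rw [hb, zero_smul, add_zero]
    exact isCtr_smul hsc hx (hab.resolve_right (fun h => h hb))
  · obtain ⟨f, hf, hfy⟩ := not_mem_A.1 h
    have h1 : R H x ((a / (b * f y)) • f) := hsc x f _ hf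
    have h2 := isCtr_conj h1.2 hy
    rw [tv_apply, LinearMap.smul_apply, smul_eq_mul] at h2
    have h3 := isCtr_smul hsc h2 hb
    have h4 : b • (y + (a / (b * f y) * f y) • x) = a • x + b • y := by
      rw [smul_add, smul_smul, add_comm]
      congr 2
      field_simp
    rwa [h4] at h3

/-- `SL₂` action on hyperbolic pairs -/
theorem R_hyp (hsc : Scal H) {x z : V} {f g : Dual F V} (h1 : R H x f) (h2 : R H z g) (h3 : f z = 1) (h4 : g x = -1) (a b : F) :
    R H (a • x + b • z) (a • f + b • g) := by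
  by_cases ha : a = 0
  · rw [ha, zero_smul, zero_add, zero_smul, zero_add]
    exact hsc _ _ _ (R_smul_left hsc b h2)
  · have h5 : R H z ((-(b / a)) • g) := hsc _ _ _ h2
    have h6 := R_tv h5 h1
    rw [LinearMap.smul_apply, h4, h3, one_smul] at h6
    have h7 := hsc _ _ a (R_smul_left hsc a h6)
    have e1 : a • (x + (-(b / a) • (-1 : F)) • z) = a • x + b • z := by
      rw [smul_add, smul_smul, smul_eq_mul]
      congr 2
      field_simp
    have e2 : a • (f - (-(b / a)) • g) = a • f + b • g := by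
      ext w
      simp only [LinearMap.smul_apply, LinearMap.sub_apply, LinearMap.add_apply, smul_eq_mul]
      field_simp
      ring
    rw [e1, e2] at h7
    exact h7

end Cfsg.Agent.H93.McL
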