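import Mathlib
import Cfsg.Agent.H93.McL.Basic

/-!
Irreducible groups generated by transvections: every vector is a centre.
-/

set_option autoImplicit false

namespace Cfsg.Agent.H93.McL

open Module

variable {F V : Type*} [Field F] [AddCommGroup V] [Module F V]
variable {H : Subgroup (V ≃ₗ[F] V)}

/-- invariance of a subspace under the transvections of `H` -/
def Inv (H : Subgroup (V ≃ₗ[F] V)) (U : Submodule F V) : Prop := ∀ v f, R H v f → ∀ u ∈ U, u + f u • v ∈ U

/-- the transvections of `H` act irreducibly -/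
def Irr (H : Subgroup (V ≃ₗ[F] V)) : Prop := ∀ U : Submodule F V, Inv H U → U = ⊥ ∨ U = ⊤

variable [FiniteDimensional F V]

theorem dim_lt (hsc : Scal H) {x y : V} (h1 : y ∉ A H x) (h2 : x ∈ A H y) :
    finrank F (Hs hsc y) < finrank F (Hs hsc x) := by
  obtain ⟨f, hf, hfy⟩ := not_mem_A.1 h1
  apply Submodule.finrank_lt_finrank_of_lt
  rw [SetLike.lt_iff_le_and_exists]
  refine ⟨fun g hg => R_comm hsc hf hg (h2 g hg) hfy, f, hf, ?_⟩
  intro h
  exact hfy h.1

theorem dim_le (hsc : Scal H) {x y : V} (h1 : y ∉ A H x) (h2 : x ∉ A H y) :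
    finrank F (Hs hsc y) ≤ finrank F (Hs hsc x) := by
  obtain ⟨f, hf, hfy⟩ := not_mem_A.1 h1
  obtain ⟨h, hh, hhx⟩ := not_mem_A.1 h2
  let E : Submodule F (Dual F V) := Hs hsc x ⊓ LinearMap.ker (Dual.eval F V y)
  have hE : E < Hs hsc x := by
    rw [SetLike.lt_iff_le_and_exists]
    refine ⟨inf_le_left, f, hf, ?_⟩
    rintro ⟨_, h3⟩
    exact hfy h3
  have h3 : Hs hsc y ≤ E ⊔ Submodule.span F {h} := by
    intro g hg
    have h4 : R H y (g - (g x / h x) • h) := (Hs hsc y).sub_mem hg ((Hs hsc y).smul_mem _ hh)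
    have h5 : (g - (g x / h x) • h) x = 0 := by
      rw [LinearMap.sub_apply, LinearMap.smul_apply, smul_eq_mul]
      field_simp
      ring
    have h6 : R H x (g - (g x / h x) • h) := R_comm hsc hf h4 h5 hfy
    have h7 : g = (g - (g x / h x) • h) + (g x / h x) • h := by abel
    rw [h7]
    exact Submodule.add_mem_sup ⟨h6, h4.1⟩ (Submodule.smul_mem _ _ (Submodule.mem_span_singleton_self h))
  have h4 := Submodule.finrank_mono h3
  have h5 := Submodule.finrank_add_le_finrank_add_finrank E (Submodule.span F {h})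
  have h6 := Submodule.finrank_lt_finrank_of_lt hE
  have h7 := finrank_span_singleton (K := F) (v := h) (by rintro rfl; exact hhx rfl)
  omega

theorem dim_eq (hsc : Scal H) {x y : V} (h1 : y ∉ A H x) (h2 : x ∉ A H y) :
    finrank F (Hs hsc y) = finrank F (Hs hsc x) := le_antisymm (dim_le hsc h1 h2) (dim_le hsc h2 h1)

omit [FiniteDimensional F V] in
theorem dim_conj (hsc : Scal H) {k : V ≃ₗ[F] V} (hk : k ∈ H) (x : V) :
    finrank F (Hs hsc (k x)) = finrank F (Hs hsc x) := by
  have h1 : (Hs hsc x).map (k.symm.dualMap : Dual F V →ₗ[F] Dual F V) = Hs hsc (k x) := by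
    ext g
    rw [Submodule.mem_map]
    constructor
    · rintro ⟨f, hf, rfl⟩
      exact R_conj hk hf
    · intro hg
      refine ⟨g ∘ₗ (k : V →ₗ[F] V), ?_, ?_⟩
      · have := R_conj (H.inv_mem hk) hg
        have e1 : k⁻¹ (k x) = x := k.symm_apply_apply x
        rw [e1] at this
        exact this
      · ext z
        simp
  rw [← h1]
  exact LinearEquiv.finrank_map_eq (k.symm.dualMap) _

omit [FiniteDimensional F V] in
/-- for a conjugation invariant set of centres no nonzero vector is killed by all of them -/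
theorem exists_not_mem_A (hirr : Irr H) {S : Set V} (hS : ∀ k ∈ H, ∀ x ∈ S, k x ∈ S) {x₀ : V} (hx₀ : x₀ ∈ S)
    (hc : IsCtr H x₀) {y : V} (hy : y ≠ 0) : ∃ x ∈ S, y ∉ A H x := by
  by_contra hcon
  push Not at hcon
  let Z : Submodule F V :=
    { carrier := {y | ∀ x ∈ S, y ∈ A H x}
      add_mem' := fun h1 h2 x hx => Submodule.add_mem _ (h1 x hx) (h2 x hx)
      zero_mem' := fun x _ => Submodule.zero_mem _
      smul_mem' := fun c y h x hx => Submodule.smul_mem _ c (h x hx) }
  have hZ : Inv H Z := by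
    intro v f hvf u hu x hx g hg
    -- apply the inverse transvection
    have h1 := hS _ (H.inv_mem hvf.2) x hx
    have h2 := hu _ h1
    have h3 := R_conj (H.inv_mem hvf.2) hg
    have h4 := h2 _ h3
    have e1 : (((LinearEquiv.transvection hvf.1)⁻¹).symm : V →ₗ[F] V) u = u + f u • v := rfl
    rw [LinearMap.comp_apply, e1] at h4
    exact h4
  rcases hirr Z hZ with h | h
  · have : y ∈ Z := hcon
    rw [h, Submodule.mem_bot] at this
    exact hy this
  · obtain ⟨_, f, hf, hf0⟩ := hc
    apply hf0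
    ext z
    have hz : z ∈ Z := by rw [h]; trivial
    exact hz x₀ hx₀ f hf

theorem all_dim (hsc : Scal H) (hirr : Irr H) :
    ∃ d, ∀ x, IsCtr H x → finrank F (Hs hsc x) = d := by
  classical
  by_cases hne : ∃ x, IsCtr H x
  · have hex : ∃ n, ∃ x, IsCtr H x ∧ finrank F (Hs hsc x) = n := ⟨_, hne.choose, hne.choose_spec, rfl⟩
    obtain ⟨x₀, hx₀, hd₀⟩ := Nat.find_spec hex
    set d := Nat.find hex with hd
    refine ⟨d, fun y hy => ?_⟩
    let S : Set V := {x | IsCtr H x ∧ finrank F (Hs hsc x) = d}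
    obtain ⟨x, hx, hyx⟩ := exists_not_mem_A hirr (S := S) (fun k hk x hx => ⟨isCtr_conj hk hx.1, by rw [dim_conj hsc hk]; exact hx.2⟩)
      (x₀ := x₀) ⟨hx₀, hd₀⟩ hx₀ hy.1
    have hmin : d ≤ finrank F (Hs hsc y) := Nat.find_min' hex ⟨y, hy, rfl⟩
    have hxy : x ∉ A H y := by
      intro h
      have := dim_lt hsc hyx h
      rw [hx.2] at this
      omega
    rw [dim_eq hsc hyx hxy, hx.2]
  · exact ⟨0, fun x hx => absurd ⟨x, hx⟩ hne⟩

theorem sym (hsc : Scal H) (hirr : Irr H) {x y : V} (hx : IsCtr H x) (hy : IsCtr H y) (h : y ∉ A H x) : x ∉ A H y := by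
  obtain ⟨d, hd⟩ := all_dim hsc hirr
  intro h'
  have := dim_lt hsc h h'
  rw [hd x hx, hd y hy] at this
  exact lt_irrefl _ this

theorem exists_nbr (hsc : Scal H) (hirr : Irr H) {x : V} (hx : IsCtr H x) : ∃ z, IsCtr H z ∧ x ∉ A H z ∧ z ∉ A H x := by
  obtain ⟨z, hz, hxz⟩ := exists_not_mem_A hirr (S := {z | IsCtr H z}) (fun k hk x hx => isCtr_conj hk hx) hx hx hx.1
  exact ⟨z, hz, hxz, sym hsc hirr hz hx hxz⟩

theorem exists_common (hsc : Scal H) (hirr : Irr H) {x y : V} (hx : IsCtr H x) (hy : IsCtr H y) :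
    ∃ z, IsCtr H z ∧ z ∉ A H x ∧ z ∉ A H y := by
  let Q : V → Prop := fun y => ∃ z, IsCtr H z ∧ z ∉ A H x ∧ z ∉ A H y
  have hQx : Q x := by
    obtain ⟨z, hz, _, h2⟩ := exists_nbr hsc hirr hx
    exact ⟨z, hz, h2, h2⟩
  have hstep : ∀ y y', IsCtr H y → IsCtr H y' → Q y → y' ∉ A H y → Q y' := by
    intro y y' hy hy' hQ hadj
    by_cases hyx : y ∈ A H x
    · obtain ⟨z, hz, hzx, hzy⟩ := hQ
      by_cases hzy' : z ∈ A H y'
      · refine ⟨z + y, ?_, ?_, ?_⟩
        · have := isCtr_comb hsc hz hy (sym hsc hirr hy hz hzy) (a := 1) (b := 1) (Or.inl one_ne_zero)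
          rwa [one_smul, one_smul] at this
        · intro h
          apply hzx
          have := Submodule.sub_mem _ h hyx
          rwa [add_sub_cancel_right] at this
        · intro h
          apply sym hsc hirr hy hy' hadj
          have := Submodule.sub_mem _ h hzy'
          rwa [add_sub_cancel_left] at this
      · exact ⟨z, hz, hzx, hzy'⟩
    · exact ⟨y, hy, hyx, sym hsc hirr hy hy' hadj⟩
  by_contra hcon
  let S : Set V := {y | IsCtr H y ∧ Q y}
  have hinv : Inv H (Submodule.span F S) := by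
    intro v f hvf u hu
    induction hu using Submodule.span_induction with
    | mem u hu =>
      by_cases hfu : f u = 0
      · rw [hfu, zero_smul, add_zero]
        exact Submodule.subset_span hu
      · have hv0 : v ≠ 0 ∨ v = 0 := (em (v = 0)).symm
        rcases hv0 with hv0 | hv0
        · have hvc : IsCtr H v := isCtr_of_R hv0 hvf (fun h => hfu (by rw [h]; rfl))
          have huv : u ∉ A H v := fun h => hfu (h f hvf)
          have hQv : Q v := hstep u v hu.1 hvc hu.2 (sym hsc hirr hvc hu.1 huv)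
          exact Submodule.add_mem _ (Submodule.subset_span hu) (Submodule.smul_mem _ _ (Submodule.subset_span ⟨hvc, hQv⟩))
        · rw [hv0, smul_zero, add_zero]
          exact Submodule.subset_span hu
    | zero => rw [map_zero, zero_smul, add_zero]; exact Submodule.zero_mem _
    | add a b _ _ ha hb =>
      have e : a + b + f (a + b) • v = (a + f a • v) + (b + f b • v) := by rw [map_add, add_smul]; abel
      rw [e]; exact Submodule.add_mem _ ha hb
    | smul c a _ ha =>
      have e : c • a + f (c • a) • v = c • (a + f a • v) := by rw [map_smul, smul_eq_mul, smul_add, smul_smul]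
      rw [e]; exact Submodule.smul_mem _ _ ha
  rcases hirr _ hinv with h | h
  · have : x ∈ Submodule.span F S := Submodule.subset_span ⟨hx, hQx⟩
    rw [h, Submodule.mem_bot] at this
    exact hx.1 this
  · have hle : Submodule.span F S ≤ A H y := by
      rw [Submodule.span_le]
      intro u hu
      by_contra h'
      exact hcon (hstep u y hu.1 hy hu.2 (sym hsc hirr hy hu.1 h'))
    obtain ⟨_, f, hf, hf0⟩ := hy
    apply hf0
    ext z
    have hz : z ∈ A H y := hle (by rw [h]; trivial)
    exact hz f hf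

/-- main computation for perpendicular centres -/
theorem perp_main (hsc : Scal H) (hirr : Irr H) {x y z : V} (hx : IsCtr H x) (hy : IsCtr H y) (hz : IsCtr H z)
    (hzx : z ∉ A H x) (hzy : z ∉ A H y) (hyx : y ∈ A H x) :
    ∃ fz, R H z fz ∧ (∀ s t : F, s ≠ t * fz y → IsCtr H (s • x + t • y)) ∧ (∀ g, R H z g → g y = -(g x * fz y)) := by
  obtain ⟨f', hf', hf'z⟩ := not_mem_A.1 hzx
  obtain ⟨g', hg', hg'x⟩ := not_mem_A.1 (sym hsc hirr hx hz hzx)
  have hfx : R H x ((f' z)⁻¹ • f') := hsc _ _ _ hf'
  have hfz : R H z ((-(g' x)⁻¹) • g') := hsc _ _ _ hg'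
  set fx := (f' z)⁻¹ • f' with hfxd
  set fz := (-(g' x)⁻¹) • g' with hfzd
  have h1 : fx z = 1 := by
    rw [hfxd, LinearMap.smul_apply, smul_eq_mul, inv_mul_cancel₀ hf'z]
  have h2 : fz x = -1 := by
    rw [hfzd, LinearMap.smul_apply, smul_eq_mul, neg_mul, inv_mul_cancel₀ hg'x]
  clear_value fx fz
  refine ⟨fz, hfz, ?_, ?_⟩
  · intro s t hst
    have hu : IsCtr H (s • x + (1 : F) • z) := isCtr_comb hsc hx hz hzx (Or.inr one_ne_zero)
    have hw : IsCtr H (t • y + (-1 : F) • z) := isCtr_comb hsc hy hz hzy (Or.inr (neg_ne_zero.2 one_ne_zero))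
    have hRu := R_hyp hsc hfx hfz h1 h2 s 1
    have hwu : (t • y + (-1 : F) • z) ∉ A H (s • x + (1 : F) • z) := by
      intro h
      have := h _ hRu
      simp only [LinearMap.add_apply, LinearMap.smul_apply, map_add, map_smul, smul_eq_mul] at this
      rw [hyx fx hfx, h1, hfz.1] at this
      apply hst
      linear_combination -this
    have h3 := isCtr_comb hsc hu hw hwu (a := 1) (b := 1) (Or.inl one_ne_zero)
    have h4 : (1 : F) • (s • x + (1 : F) • z) + (1 : F) • (t • y + (-1 : F) • z) = s • x + t • y := by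
      rw [one_smul, one_smul, one_smul, neg_smul, one_smul]
      abel
    rwa [h4] at h3
  · intro g hg
    have h3 : R H z (g + (g x) • fz) := R_add_right hg (hsc _ _ _ hfz)
    have h4 : (g + (g x) • fz) x = 0 := by
      rw [LinearMap.add_apply, LinearMap.smul_apply, h2, smul_eq_mul]; ring
    have h5 := R_comm hsc hfx h3 h4 (by rw [h1]; exact one_ne_zero)
    have h6 := hyx _ h5
    rw [LinearMap.add_apply, LinearMap.smul_apply, smul_eq_mul] at h6
    linear_combination h6

theorem key (hsc : Scal H) (hirr : Irr H) {x y z : V} (hx : IsCtr H x) (hy : IsCtr H y) (hz : IsCtr H z)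
    (hxz : x ∉ A H z) (hyz : y ∉ A H z) {s t : F} (hst : s • x + t • y ∉ A H z) : IsCtr H (s • x + t • y) := by
  by_cases hyx : y ∈ A H x
  · obtain ⟨fz, hfz, h1, h2⟩ := perp_main hsc hirr hx hy hz (sym hsc hirr hz hx hxz) (sym hsc hirr hz hy hyz) hyx
    by_cases h3 : s = t * fz y
    · exfalso
      apply hst
      intro g hg
      rw [map_add, map_smul, map_smul, h2 g hg, h3]
      simp only [smul_eq_mul]
      ring
    · exact h1 s t h3
  · apply isCtr_comb hsc hx hy hyx
    by_contra hcon
    push Not at hcon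
    apply hst
    rw [hcon.1, hcon.2, zero_smul, zero_smul, add_zero]
    exact Submodule.zero_mem _

theorem isCtr_add (hF : ∃ a : F, a ≠ 0 ∧ a ≠ 1) (hsc : Scal H) (hirr : Irr H) {x y : V} (hx : IsCtr H x) (hy : IsCtr H y)
    (hxy : x + y ≠ 0) : IsCtr H (x + y) := by
  by_cases hyx : y ∈ A H x
  · obtain ⟨z, hz, hzx, hzy⟩ := exists_common hsc hirr hx hy
    obtain ⟨fz, hfz, h1, h2⟩ := perp_main hsc hirr hx hy hz hzx hzy hyx
    by_cases h3 : (1 : F) = 1 * fz y
    · obtain ⟨z', hz', hw⟩ := exists_not_mem_A hirr (S := {z | IsCtr H z}) (fun k hk x hx => isCtr_conj hk hx) hx hx hxy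
      have hz' : IsCtr H z' := hz'
      obtain ⟨μ, hμ0, hμ1⟩ := hF
      have h4 : IsCtr H ((1 : F) • x + μ • y) := h1 1 μ (by
        rw [one_mul] at h3
        rw [← h3, mul_one]
        exact hμ1.symm)
      by_cases hxz' : x ∈ A H z'
      · have hyz' : y ∉ A H z' := fun h => hw (Submodule.add_mem _ hxz' h)
        have hez' : ((1 : F) • x + μ • y) ∉ A H z' := by
          intro h
          apply hyz'
          have h5 := Submodule.sub_mem _ h (Submodule.smul_mem _ (1 : F) hxz')
          rw [add_sub_cancel_left] at h5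
          have h6 := Submodule.smul_mem _ μ⁻¹ h5
          rwa [smul_smul, inv_mul_cancel₀ hμ0, one_smul] at h6
        have e : x + y = (1 : F) • ((1 : F) • x + μ • y) + (1 - μ) • y := by
          rw [one_smul, one_smul, sub_smul, one_smul]; abel
        rw [e] at hw ⊢
        exact key hsc hirr h4 hy hz' hez' hyz' hw
      · by_cases hyz' : y ∈ A H z'
        · have hez' : ((1 : F) • x + μ • y) ∉ A H z' := by
            intro h
            apply hxz'
            have h5 := Submodule.sub_mem _ h (Submodule.smul_mem _ μ hyz')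
            rwa [add_sub_cancel_right, one_smul] at h5
          have e : x + y = μ⁻¹ • ((1 : F) • x + μ • y) + (1 - μ⁻¹) • x := by
            rw [smul_add, smul_smul, smul_smul, inv_mul_cancel₀ hμ0, one_smul, mul_one, sub_smul, one_smul]
            abel
          rw [e] at hw ⊢
          exact key hsc hirr h4 hx hz' hez' hxz' hw
        · have e : x + y = (1 : F) • x + (1 : F) • y := by rw [one_smul, one_smul]
          rw [e] at hw ⊢
          exact key hsc hirr hx hy hz' hxz' hyz' hw
    · have := h1 1 1 h3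
      rwa [one_smul, one_smul] at this
  · have := isCtr_comb hsc hx hy hyx (a := 1) (b := 1) (Or.inl one_ne_zero)
    rwa [one_smul, one_smul] at this

/-- all nonzero vectors are centres -/
theorem all_ctr (hF : ∃ a : F, a ≠ 0 ∧ a ≠ 1) (hsc : Scal H) (hirr : Irr H) {x₀ : V} (hx₀ : IsCtr H x₀) :
    ∀ x : V, x ≠ 0 → IsCtr H x := by
  let U : Submodule F V :=
    { carrier := {x | x = 0 ∨ IsCtr H x}
      add_mem' := by
        rintro x y (rfl | hx) (rfl | hy)
        · left; rw [add_zero]
        · right; rwa [zero_add]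
        · right; rwa [add_zero]
        · by_cases h : x + y = 0
          · left; exact h
          · right; exact isCtr_add hF hsc hirr hx hy h
      zero_mem' := Or.inl rfl
      smul_mem' := by
        rintro c x (rfl | hx)
        · left; rw [smul_zero]
        · by_cases hc : c = 0
          · left; rw [hc, zero_smul]
          · right; exact isCtr_smul hsc hx hc }
  have hU : Inv H U := by
    rintro v f hvf u (rfl | hu)
    · left; rw [map_zero, zero_smul, add_zero]
    · right; exact isCtr_conj hvf.2 hu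
  intro x hx
  rcases hirr U hU with h | h
  · have : x₀ ∈ U := Or.inr hx₀
    rw [h, Submodule.mem_bot] at this
    exact absurd this hx₀.1
  · have : x ∈ U := by rw [h]; trivial
    exact this.resolve_left hx

end Cfsg.Agent.H93.McL
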