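import Mathlib
import Cfsg.Agent.H93.McL.Irr

/-!
Irreducible groups generated by transvections: linear or symplectic.
-/

set_option autoImplicit false

namespace Cfsg.Agent.H93.McL

open Module

variable {F V : Type*} [Field F] [AddCommGroup V] [Module F V]
variable {H : Subgroup (V ≃ₗ[F] V)}

theorem prop_of_ker {f g : Dual F V} (h : ∀ w, f w = 0 → g w = 0) : ∃ c : F, g = c • f := by
  by_cases hf : f = 0
  · refine ⟨0, ?_⟩
    rw [zero_smul]
    ext w
    exact h w (by rw [hf]; rfl)
  · obtain ⟨w, hw⟩ : ∃ w, f w ≠ 0 := by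
      by_contra hcon
      push Not at hcon
      exact hf (LinearMap.ext hcon)
    refine ⟨g w / f w, ?_⟩
    ext z
    have h1 := h (z - (f z / f w) • w) (by
      rw [map_sub, map_smul, smul_eq_mul]; field_simp; ring)
    rw [map_sub, map_smul, smul_eq_mul] at h1
    rw [LinearMap.smul_apply, smul_eq_mul]
    have h2 : g z = f z / f w * g w := by linear_combination h1
    rw [h2]; ring

theorem exists_ne_zero_apply {f : Dual F V} (hf : f ≠ 0) : ∃ w, f w ≠ 0 := by
  by_contra hcon
  push Not at hcon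
  exact hf (LinearMap.ext hcon)

variable [FiniteDimensional F V]

/-- `e ∈ Hs x`, `z` not perpendicular to `x`, `e z = 0` -/
theorem R_of_not_perp (hsc : Scal H) (hirr : Irr H) (hall : ∀ x : V, x ≠ 0 → IsCtr H x) {x z : V} (hx : x ≠ 0) (hz : z ∉ A H x)
    {e : Dual F V} (he : R H x e) (hez : e z = 0) : R H z e := by
  have hz0 : z ≠ 0 := by rintro rfl; exact hz (Submodule.zero_mem _)
  obtain ⟨h, hh, hhx⟩ := not_mem_A.1 (sym hsc hirr (hall x hx) (hall z hz0) hz)
  exact R_comm hsc hh he hez hhx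

/-- the case of at least two dimensional `Hs` -/
theorem all_of_two_le (hsc : Scal H) (hirr : Irr H) (hall : ∀ x : V, x ≠ 0 → IsCtr H x)
    {d : ℕ} (hd2 : 2 ≤ d) (hd : ∀ x, IsCtr H x → finrank F (Hs hsc x) = d) {x₀ : V} (hx₀ : x₀ ≠ 0) :
    ∀ (v : V) (f : Dual F V), f v = 0 → R H v f := by
  have h2 : ∀ x : V, x ≠ 0 → ∀ e, R H x e → ∃ z, z ∉ A H x ∧ e z = 0 := by
    intro x hx e he
    by_contra hcon
    push Not at hcon
    have h3 : Hs hsc x ≤ Submodule.span F {e} := by
      intro f hf
      obtain ⟨c, hc⟩ := prop_of_ker (f := e) (g := f) (fun w hw => by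
        by_contra hfw
        exact hcon w (fun hA => hfw (hA f hf)) hw)
      rw [hc]
      exact Submodule.smul_mem _ _ (Submodule.mem_span_singleton_self e)
    have h4 := Submodule.finrank_mono h3
    have h5 := finrank_span_le_card (R := F) ({e} : Set (Dual F V))
    rw [hd x (hall x hx)] at h4
    simp at h5
    omega
  have h3 : ∀ x : V, x ≠ 0 → ∀ e, R H x e → ∀ w, e w = 0 → R H w e := by
    intro x hx e he w hw
    by_cases hwA : w ∈ A H x
    · obtain ⟨z, hz, hez⟩ := h2 x hx e he
      have h5 : R H z e := R_of_not_perp hsc hirr hall hx hz he hez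
      have h6 : z + w ∉ A H x := by
        intro h
        apply hz
        have := Submodule.sub_mem _ h hwA
        rwa [add_sub_cancel_right] at this
      have h7 : R H (z + w) e := R_of_not_perp hsc hirr hall hx h6 he (by rw [map_add, hez, hw, add_zero])
      have h8 : R H (-z) e := by
        have := R_smul_left hsc (-1) h5
        rwa [neg_smul, one_smul] at this
      have h9 := R_add_left h7 h8
      have e1 : z + w + -z = w := by abel
      rwa [e1] at h9
    · exact R_of_not_perp hsc hirr hall hx hwA he hw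
  -- the dimension is at least three
  have hn : 3 ≤ finrank F V := by
    have h4 : Hs hsc x₀ ≤ LinearMap.ker (Dual.eval F V x₀) := fun f hf => hf.1
    have h5 := Submodule.finrank_mono h4
    rw [hd x₀ (hall x₀ hx₀)] at h5
    have h6 := LinearMap.finrank_range_add_finrank_ker (Dual.eval F V x₀)
    have h7 : LinearMap.range (Dual.eval F V x₀) = ⊤ := by
      apply LinearMap.range_eq_top.2
      apply LinearMap.surjective
      intro h0
      exact hx₀ ((Module.eval_apply_eq_zero_iff F x₀).1 h0)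
    rw [h7, finrank_top, finrank_self, Subspace.dual_finrank_eq] at h6
    omega
  let Y : Submodule F (Dual F V) :=
    { carrier := {e | ∀ w, e w = 0 → R H w e}
      add_mem' := by
        intro e e' he he' w hw
        obtain ⟨w₀, hw₀, h0, h0'⟩ : ∃ w₀ : V, w₀ ≠ 0 ∧ e w₀ = 0 ∧ e' w₀ = 0 := by
          by_contra hcon
          push Not at hcon
          have hinj : Function.Injective (e.prod e') := by
            rw [← LinearMap.ker_eq_bot, Submodule.eq_bot_iff]
            intro u hu
            by_contra hu0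
            rw [LinearMap.mem_ker] at hu
            have hu' : (e u, e' u) = (0, 0) := hu
            rw [Prod.mk_inj] at hu'
            exact hcon u hu0 hu'.1 hu'.2
          have := LinearMap.finrank_le_finrank_of_injective hinj
          rw [finrank_prod, finrank_self] at this
          omega
        exact h3 w₀ hw₀ _ (R_add_right (he w₀ h0) (he' w₀ h0')) w hw
      zero_mem' := fun w _ => R_zero_right w
      smul_mem' := by
        intro c e he w hw
        by_cases hc : c = 0
        · rw [hc, zero_smul]; exact R_zero_right w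
        · apply hsc
          apply he
          rw [LinearMap.smul_apply, smul_eq_mul] at hw
          exact (mul_eq_zero.1 hw).resolve_left hc }
  have hYconj : ∀ k ∈ H, ∀ e ∈ Y, e ∘ₗ (k : V →ₗ[F] V) ∈ Y := by
    intro k hk e he w hw
    have h4 := he (k w) hw
    have h5 := R_conj (H.inv_mem hk) h4
    have e1 : k⁻¹ (k w) = w := k.symm_apply_apply w
    rw [e1] at h5
    exact h5
  let Z : Submodule F V :=
    { carrier := {v | ∀ e ∈ Y, e v = 0}
      add_mem' := fun h1 h2 e he => by rw [map_add, h1 e he, h2 e he, add_zero]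
      zero_mem' := fun e _ => e.map_zero
      smul_mem' := fun c v h e he => by rw [map_smul, h e he, smul_zero] }
  have hZ : Inv H Z := by
    intro v f hvf u hu e he
    exact hu _ (hYconj _ hvf.2 e he)
  have hZb : Z = ⊥ := by
    rcases hirr Z hZ with h | h
    · exact h
    · exfalso
      obtain ⟨_, f, hf, hf0⟩ := hall x₀ hx₀
      apply hf0
      ext z
      have hz : z ∈ Z := by rw [h]; trivial
      exact hz f (fun w hw => h3 x₀ hx₀ f hf w hw)
  have hYt : Y = ⊤ := by
    have h4 := Subspace.dualCoannihilator_dualAnnihilator_eq (K := F) (V := V) (W := Y)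
    have h5 : Y.dualCoannihilator = ⊥ := by
      rw [← hZb]
      ext v
      rw [Submodule.mem_dualCoannihilator]
      rfl
    rw [h5, Submodule.dualAnnihilator_bot] at h4
    exact h4.symm
  intro v f hf
  have : f ∈ Y := by rw [hYt]; trivial
  exact this v hf

/-- with one dimensional `Hs`, membership in `A` is tested by one functional -/
theorem mem_A_of (hsc : Scal H) {x : V} (h1 : finrank F (Hs hsc x) = 1) {f : Dual F V} (hf : R H x f) (hf0 : f ≠ 0)
    {y : V} (hy : f y = 0) : y ∈ A H x := by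
  intro g hg
  obtain ⟨c, hc⟩ := (finrank_eq_one_iff_of_nonzero' (⟨f, hf⟩ : Hs hsc x) (by
    intro h; exact hf0 (congrArg Subtype.val h))).1 h1 ⟨g, hg⟩
  have : g = c • f := (congrArg Subtype.val hc).symm
  rw [this, LinearMap.smul_apply, hy, smul_zero]

theorem prop_of_R (hsc : Scal H) {x : V} (h1 : finrank F (Hs hsc x) = 1) {f g : Dual F V} (hf : R H x f) (hf0 : f ≠ 0)
    (hg : R H x g) : ∃ c : F, g = c • f := by
  obtain ⟨c, hc⟩ := (finrank_eq_one_iff_of_nonzero' (⟨f, hf⟩ : Hs hsc x) (by
    intro h; exact hf0 (congrArg Subtype.val h))).1 h1 ⟨g, hg⟩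
  exact ⟨c, (congrArg Subtype.val hc).symm⟩

/-- the symplectic case -/
theorem form_of_one (hsc : Scal H) (hirr : Irr H) (hall : ∀ x : V, x ≠ 0 → IsCtr H x)
    (hd : ∀ x : V, x ≠ 0 → finrank F (Hs hsc x) = 1) {x₀ : V} (hx₀ : x₀ ≠ 0) :
    ∃ B : LinearMap.BilinForm F V, B.IsAlt ∧ B.Nondegenerate ∧ ∀ (v : V) (f : Dual F V), v ≠ 0 → (R H v f ↔ ∃ c : F, f = c • B v) := by
  classical
  obtain ⟨_, f₀, hf₀, hf₀0⟩ := hall x₀ hx₀
  have hsym : ∀ x y : V, x ≠ 0 → y ≠ 0 → y ∉ A H x → x ∉ A H y := fun x y hx hy h => sym hsc hirr (hall x hx) (hall y hy) h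
  have hO0 : ∀ w, f₀ w ≠ 0 → w ≠ 0 := by rintro w hw rfl; exact hw f₀.map_zero
  have hOA : ∀ w, f₀ w ≠ 0 → x₀ ∉ A H w := fun w hw => hsym x₀ w hx₀ (hO0 w hw) (fun h => hw (h f₀ hf₀))
  have hex : ∀ w, ∃ g : Dual F V, f₀ w ≠ 0 → R H w g ∧ g x₀ = - f₀ w := by
    intro w
    by_cases hw : f₀ w ≠ 0
    · obtain ⟨g, hg, hgx⟩ := not_mem_A.1 (hOA w hw)
      refine ⟨(- f₀ w / g x₀) • g, fun _ => ⟨hsc _ _ _ hg, ?_⟩⟩
      rw [LinearMap.smul_apply, smul_eq_mul]
      field_simp
    · exact ⟨0, fun h => absurd h hw⟩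
  choose φ hφ using hex
  have hφ0 : ∀ w, f₀ w ≠ 0 → φ w ≠ 0 := by
    intro w hw h
    have := (hφ w hw).2
    rw [h, LinearMap.zero_apply] at this
    exact hw (neg_eq_zero.1 this.symm)
  -- antisymmetry
  have hanti : ∀ w w', f₀ w ≠ 0 → f₀ w' ≠ 0 → φ w w' = - φ w' w := by
    intro w w' hw hw'
    obtain ⟨h1, h2⟩ := hφ w hw
    obtain ⟨h1', h2'⟩ := hφ w' hw'
    have hc := hw
    have hfR : R H x₀ ((f₀ w)⁻¹ • f₀) := hsc _ _ _ hf₀
    have hgR : R H w ((f₀ w)⁻¹ • φ w) := hsc _ _ _ h1
    have e1 : ((f₀ w)⁻¹ • f₀) w = 1 := by rw [LinearMap.smul_apply, smul_eq_mul, inv_mul_cancel₀ hw]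
    have e2 : ((f₀ w)⁻¹ • φ w) x₀ = -1 := by
      rw [LinearMap.smul_apply, smul_eq_mul, h2, mul_neg, inv_mul_cancel₀ hw]
    have hR := R_hyp hsc hfR hgR e1 e2 (φ w w') (-(f₀ w'))
    set u := φ w w' • x₀ + (-(f₀ w')) • w with hu
    set fu := φ w w' • ((f₀ w)⁻¹ • f₀) + (-(f₀ w')) • ((f₀ w)⁻¹ • φ w) with hfu
    have e3 : f₀ u = -(f₀ w' * f₀ w) := by
      rw [hu, map_add, map_smul, map_smul, hf₀.1]
      simp only [smul_eq_mul]; ring
    have hu0 : u ≠ 0 := by
      intro h
      rw [h, map_zero] at e3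
      exact neg_ne_zero.2 (mul_ne_zero hw' hw) e3.symm
    have e4 : fu x₀ = f₀ w' := by
      rw [hfu, LinearMap.add_apply, LinearMap.smul_apply, LinearMap.smul_apply, LinearMap.smul_apply, LinearMap.smul_apply, hf₀.1, h2]
      simp only [smul_eq_mul]
      field_simp
      ring
    have hfu0 : fu ≠ 0 := by
      intro h
      rw [h, LinearMap.zero_apply] at e4
      exact hw' e4.symm
    have e5 : fu w' = 0 := by
      rw [hfu, LinearMap.add_apply, LinearMap.smul_apply, LinearMap.smul_apply, LinearMap.smul_apply, LinearMap.smul_apply]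
      simp only [smul_eq_mul]
      ring
    have e6 : w' ∈ A H u := mem_A_of hsc (hd u hu0) hR hfu0 e5
    have e7 : u ∈ A H w' := by
      by_contra h
      exact hsym w' u (hO0 w' hw') hu0 h e6
    have e8 := e7 _ h1'
    rw [hu, map_add, map_smul, map_smul, h2'] at e8
    simp only [smul_eq_mul] at e8
    have e9 : f₀ w' * (φ w w' + φ w' w) = 0 := by linear_combination -e8
    have e10 := (mul_eq_zero.1 e9).resolve_left hw'
    linear_combination e10
  -- the complement of the hyperplane spans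
  obtain ⟨w₀, hw₀⟩ := exists_ne_zero_apply hf₀0
  have hspan : ⊤ ≤ Submodule.span F {w : V | f₀ w ≠ 0} := by
    intro v _
    by_cases hv : f₀ v = 0
    · have h1 : v = (v + w₀) - w₀ := by abel
      rw [h1]
      apply Submodule.sub_mem
      · apply Submodule.subset_span
        show f₀ (v + w₀) ≠ 0
        rw [map_add, hv, zero_add]; exact hw₀
      · exact Submodule.subset_span hw₀
    · exact Submodule.subset_span hv
  let b := Basis.ofSpan hspan
  have hbO : ∀ i, f₀ (b i) ≠ 0 := fun i => Basis.ofSpan_subset hspan ⟨i, rfl⟩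
  let Ψ : V →ₗ[F] Dual F V := b.constr F (fun i => -(φ (b i)))
  have hΨ : ∀ i, Ψ (b i) = -(φ (b i)) := fun i => b.constr_basis F _ i
  let B : LinearMap.BilinForm F V := Ψ.flip
  have hBO : ∀ v, f₀ v ≠ 0 → B v = φ v := by
    intro v hv
    apply b.ext
    intro i
    show Ψ (b i) v = φ v (b i)
    rw [hΨ, LinearMap.neg_apply, hanti v (b i) hv (hbO i)]
  have hBBO : ∀ v w, f₀ v ≠ 0 → f₀ w ≠ 0 → B v w = - B w v := by
    intro v w hv hw
    rw [hBO v hv, hBO w hw]; exact hanti v w hv hw
  have hanti' : ∀ v w, B v w = - B w v := by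
    intro v w
    have h1 : ∀ v w, f₀ v ≠ 0 → B v w = - B w v := by
      intro v w hv
      by_cases hw : f₀ w = 0
      · have h2 : f₀ (w + v) ≠ 0 := by rw [map_add, hw, zero_add]; exact hv
        have h3 := hBBO v (w + v) hv h2
        have h4 := hBBO v v hv hv
        rw [map_add, map_add, LinearMap.add_apply] at h3
        linear_combination h3 - h4
      · exact hBBO v w hv hw
    by_cases hv : f₀ v = 0
    · have h2 : f₀ (v + w₀) ≠ 0 := by rw [map_add, hv, zero_add]; exact hw₀
      have h3 := h1 (v + w₀) w h2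
      have h4 := h1 w₀ w hw₀
      rw [map_add, map_add, LinearMap.add_apply] at h3
      linear_combination h3 - h4
    · exact h1 v w hv
  have halt : ∀ v, B v v = 0 := by
    intro v
    have h1 : ∀ v, f₀ v ≠ 0 → B v v = 0 := fun v hv => by rw [hBO v hv]; exact (hφ v hv).1.1
    by_cases hv : f₀ v = 0
    · have h2 : f₀ (v + w₀) ≠ 0 := by rw [map_add, hv, zero_add]; exact hw₀
      have h3 := h1 _ h2
      have h4 := h1 w₀ hw₀
      have h5 := hanti' v w₀
      rw [map_add, map_add, LinearMap.add_apply, LinearMap.add_apply] at h3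
      linear_combination h3 - h4 - h5
    · exact h1 v hv
  have hmem : ∀ v w, v ≠ 0 → f₀ w ≠ 0 → (v ∈ A H w ↔ B v w = 0) := by
    intro v w hv hw
    constructor
    · intro h
      rw [hanti', hBO w hw, h _ (hφ w hw).1, neg_zero]
    · intro h
      rw [hanti', hBO w hw, neg_eq_zero] at h
      exact mem_A_of hsc (hd w (hO0 w hw)) (hφ w hw).1 (hφ0 w hw) h
  have hBne : ∀ v, v ≠ 0 → B v ≠ 0 := by
    intro v hv h
    obtain ⟨_, fv, hfv, hfv0⟩ := hall v hv
    apply hfv0
    apply b.ext
    intro i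
    have h1 : v ∈ A H (b i) := (hmem v (b i) hv (hbO i)).2 (by rw [h]; rfl)
    by_contra h2
    exact hsym v (b i) hv (hO0 _ (hbO i)) (fun h3 => h2 (h3 fv hfv)) h1
  have hBx₀ : B x₀ = f₀ := by
    apply b.ext
    intro i
    rw [hanti', hBO _ (hbO i), (hφ _ (hbO i)).2, neg_neg]
  have hRB : ∀ v, v ≠ 0 → R H v (B v) := by
    intro v hv
    by_cases hvO : f₀ v = 0
    · obtain ⟨_, fv, hfv, hfv0⟩ := hall v hv
      by_cases hpr : ∃ c : F, fv = c • f₀
      · obtain ⟨c, hc⟩ := hpr
        have hc0 : c ≠ 0 := by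
          rintro rfl
          rw [zero_smul] at hc
          exact hfv0 hc
        have hRv : R H v f₀ := R_smul_cancel hsc hc0 (by rw [← hc]; exact hfv)
        -- v is proportional to x₀
        have hφv : φ w₀ v ≠ 0 := by
          intro h
          have h1 : v ∈ A H w₀ := mem_A_of hsc (hd w₀ (hO0 w₀ hw₀)) (hφ w₀ hw₀).1 (hφ0 w₀ hw₀) h
          exact hsym v w₀ hv (hO0 w₀ hw₀) (fun h3 => hw₀ (h3 f₀ hRv)) h1
        set c' := f₀ w₀ / φ w₀ v with hc'
        have hu : R H (x₀ + c' • v) f₀ := R_add_left hf₀ (R_smul_left hsc c' hRv)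
        have hφu : φ w₀ (x₀ + c' • v) = 0 := by
          rw [map_add, map_smul, (hφ w₀ hw₀).2, hc', smul_eq_mul]
          field_simp
          ring
        have hu0 : x₀ + c' • v = 0 := by
          by_contra hu0
          have h1 : x₀ + c' • v ∈ A H w₀ := mem_A_of hsc (hd w₀ (hO0 w₀ hw₀)) (hφ w₀ hw₀).1 (hφ0 w₀ hw₀) hφu
          exact hsym _ w₀ hu0 (hO0 w₀ hw₀) (fun h3 => hw₀ (h3 f₀ hu)) h1
        have hc'0 : c' ≠ 0 := div_ne_zero hw₀ hφv
        have hv' : v = (-c'⁻¹) • x₀ := by
          have h1 : x₀ = -(c' • v) := eq_neg_of_add_eq_zero_left hu0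
          rw [h1, smul_neg, neg_smul, neg_neg, smul_smul, inv_mul_cancel₀ hc'0, one_smul]
        have hBv : B v = (-c'⁻¹) • f₀ := by rw [hv', map_smul, hBx₀]
        rw [hBv]
        exact hsc _ _ _ hRv
      · -- ker fv is not contained in ker f₀
        obtain ⟨w₁, hw₁, hw₁'⟩ : ∃ w₁, fv w₁ = 0 ∧ f₀ w₁ ≠ 0 := by
          by_contra hcon
          push Not at hcon
          obtain ⟨c, hc⟩ := prop_of_ker (f := fv) (g := f₀) hcon
          apply hpr
          have hc0 : c ≠ 0 := by
            rintro rfl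
            rw [zero_smul] at hc
            exact hf₀0 hc
          exact ⟨c⁻¹, by rw [hc, smul_smul, inv_mul_cancel₀ hc0, one_smul]⟩
        have hO : ∀ w, f₀ w ≠ 0 → fv w = 0 → B v w = 0 := by
          intro w hw hfw
          have h1 : w ∈ A H v := mem_A_of hsc (hd v hv) hfv hfv0 hfw
          rw [← hmem v w hv hw]
          by_contra h2
          exact hsym w v (hO0 w hw) hv h2 h1
        obtain ⟨c, hc⟩ := prop_of_ker (f := fv) (g := B v) (by
          intro w hfw
          by_cases hw : f₀ w = 0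
          · have h1 := hO (w + w₁) (by rw [map_add, hw, zero_add]; exact hw₁') (by rw [map_add, hfw, hw₁, add_zero])
            have h2 := hO w₁ hw₁' hw₁
            rw [map_add, h2, add_zero] at h1
            exact h1
          · exact hO w hw hfw)
        rw [hc]
        exact hsc _ _ _ hfv
    · rw [hBO v hvO]; exact (hφ v hvO).1
  refine ⟨B, halt, ⟨?_, ?_⟩, ?_⟩
  · intro v hv
    by_contra hv0
    exact hBne v hv0 (LinearMap.ext hv)
  · intro v hv
    by_contra hv0
    apply hBne v hv0
    ext w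
    rw [hanti', hv w, neg_zero]; rfl
  · intro v f hv
    constructor
    · intro hf
      exact prop_of_R hsc (hd v hv) (hRB v hv) (hBne v hv) hf
    · rintro ⟨c, rfl⟩
      exact hsc _ _ _ (hRB v hv)

/-- McLaughlin's theorem: the transvections of an irreducible group closed under scalars -/
theorem dichotomy (hF : ∃ a : F, a ≠ 0 ∧ a ≠ 1) (hsc : Scal H) (hirr : Irr H) :
    (∀ (v : V) (f : Dual F V), f v = 0 → R H v f) ∨
    ∃ B : LinearMap.BilinForm F V, B.IsAlt ∧ B.Nondegenerate ∧ ∀ (v : V) (f : Dual F V), v ≠ 0 → (R H v f ↔ ∃ c : F, f = c • B v) := by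
  by_cases hne : ∃ x, IsCtr H x
  · obtain ⟨x₀, hx₀⟩ := hne
    have hall := all_ctr hF hsc hirr hx₀
    obtain ⟨d, hd⟩ := all_dim hsc hirr
    have hd0 : d ≠ 0 := by
      intro h0
      have h1 := hd x₀ hx₀
      rw [h0] at h1
      have h2 := Submodule.finrank_eq_zero.1 h1
      obtain ⟨_, f, hf, hf0⟩ := hx₀
      have h3 : f ∈ Hs hsc x₀ := hf
      rw [h2, Submodule.mem_bot] at h3
      exact hf0 h3
    by_cases hd1 : d = 1
    · right
      exact form_of_one hsc hirr hall (fun x hx => by rw [hd x (hall x hx), hd1]) hx₀.1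
    · left
      exact all_of_two_le hsc hirr hall (by omega) hd hx₀.1
  · left
    intro v f hf
    by_cases hv : v = 0
    · rw [hv]; exact R_zero_left f
    · have hinv : Inv H (Submodule.span F {v}) := by
        intro x g hg u hu
        by_cases hx : x = 0
        · rw [hx, smul_zero, add_zero]; exact hu
        · by_cases hg0 : g = 0
          · rw [hg0, LinearMap.zero_apply, zero_smul, add_zero]; exact hu
          · exact absurd ⟨x, isCtr_of_R hx hg hg0⟩ hne
      rcases hirr _ hinv with h | h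
      · exact absurd ((Submodule.span_singleton_eq_bot).1 h) hv
      · have hf0 : f = 0 := by
          ext w
          have hw : w ∈ Submodule.span F {v} := by rw [h]; trivial
          obtain ⟨c, rfl⟩ := Submodule.mem_span_singleton.1 hw
          rw [map_smul, hf, smul_zero]; rfl
        rw [hf0]; exact R_zero_right v

end Cfsg.Agent.H93.McL
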