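import Mathlib
import Cfsg.Agent.H93.McL.Dich
import Cfsg.Agent.H40.SLGen

/-!
Generation of special linear and symplectic groups by transvections, coordinate free.
-/

set_option autoImplicit false

namespace Cfsg.Agent.H93.McL

open Module

variable {F V : Type*} [Field F] [AddCommGroup V] [Module F V]
variable {H : Subgroup (V ≃ₗ[F] V)}

/-- fixed vectors -/
def Fx (g : V ≃ₗ[F] V) : Submodule F V where
  carrier := {x | g x = x}
  add_mem' := fun {x y} hx hy => by
    show g (x + y) = x + y
    rw [map_add, show g x = x from hx, show g y = y from hy]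
  zero_mem' := g.map_zero
  smul_mem' := fun c x hx => by
    show g (c • x) = c • x
    rw [map_smul, show g x = x from hx]

theorem mem_Fx {g : V ≃ₗ[F] V} {x : V} : x ∈ Fx g ↔ g x = x := Iff.rfl

variable [FiniteDimensional F V]

theorem iso_mem {B : LinearMap.BilinForm F V} (hB : B.IsAlt) (hnd : B.Nondegenerate)
    (hT : ∀ (v : V) (c : F), R H v (c • B v)) : ∀ g : V ≃ₗ[F] V, (∀ x y, B (g x) (g y) = B x y) → g ∈ H := by
  have hneg : ∀ x y, B x y = - B y x := fun x y => by rw [hB.neg_eq y x |>.symm]
  have hself : ∀ x, B x x = 0 := fun x => hB x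
  -- transvections are isometries
  have hTi : ∀ (v : V) (c : F) (h : (c • B v) v = 0) (x y : V),
      B (LinearEquiv.transvection h x) (LinearEquiv.transvection h y) = B x y := by
    intro v c h x y
    rw [tv_apply, tv_apply]
    simp only [map_add, LinearMap.add_apply, LinearMap.smul_apply, map_smul, smul_eq_mul, hself]
    rw [hneg x v]
    ring
  have key : ∀ (g : V ≃ₗ[F] V), (∀ x y, B (g x) (g y) = B x y) → ∀ x, g x ≠ x →
      ∃ t ∈ H, (∀ x y, B (t x) (t y) = B x y) ∧ t x = g x ∧ ∀ w ∈ Fx g, t w = w := by
    intro g hg x hx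
    -- one step
    have step : ∀ a b : V, B (b - a) a ≠ 0 → ∃ t ∈ H, (∀ x y, B (t x) (t y) = B x y) ∧ t a = b ∧
        ∀ w, B (b - a) w = 0 → t w = w := by
      intro a b hab
      have h1 := hT (b - a) ((B (b - a) a)⁻¹)
      refine ⟨_, h1.2, hTi _ _ h1.1, ?_, ?_⟩
      · rw [tv_apply, LinearMap.smul_apply, smul_eq_mul, inv_mul_cancel₀ hab, one_smul]
        abel
      · intro w hw
        rw [tv_apply, LinearMap.smul_apply, hw, smul_zero, zero_smul, add_zero]
    by_cases h0 : B (g x - x) x = 0
    · -- B x (g x) = 0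
      have h0' : B (g x) x = 0 := by
        rw [map_sub, LinearMap.sub_apply, hself, sub_zero] at h0; exact h0
      let P : Submodule F V :=
        { carrier := {r | ∀ w ∈ Fx g, B r w = 0}
          add_mem' := fun h1 h2 w hw => by rw [map_add, LinearMap.add_apply, h1 w hw, h2 w hw, add_zero]
          zero_mem' := fun w _ => by rw [map_zero]; rfl
          smul_mem' := fun c r h w hw => by rw [map_smul, LinearMap.smul_apply, h w hw, smul_zero] }
      have hP : ∀ y, g y - y ∈ P := by
        intro y w hw
        rw [map_sub, LinearMap.sub_apply]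
        nth_rewrite 1 [← mem_Fx.1 hw]
        rw [hg, sub_self]
      have hx' : x - g x ≠ 0 := fun h => hx (sub_eq_zero.1 h).symm
      obtain ⟨r₁, hr₁, hr₁x⟩ : ∃ r ∈ P, B r x ≠ 0 := by
        by_contra hcon
        push Not at hcon
        apply hx'
        apply hnd.2
        intro y
        obtain ⟨y, rfl⟩ := g.surjective y
        have := hcon _ (hP y)
        rw [map_sub, LinearMap.sub_apply] at this
        rw [map_sub, hg]
        exact this
      obtain ⟨r₂, hr₂, hr₂x⟩ : ∃ r ∈ P, B r (g x) ≠ 0 := by
        by_contra hcon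
        push Not at hcon
        apply hx'
        apply hnd.2
        intro y
        have := hcon _ (hP y)
        rw [map_sub, LinearMap.sub_apply, hg] at this
        rw [map_sub]
        exact this
      obtain ⟨r, hr, hrx, hrgx⟩ : ∃ r ∈ P, B r x ≠ 0 ∧ B r (g x) ≠ 0 := by
        by_cases h1 : B r₁ (g x) = 0
        · by_cases h2 : B r₂ x = 0
          · refine ⟨r₁ + r₂, P.add_mem hr₁ hr₂, ?_, ?_⟩
            · rw [map_add, LinearMap.add_apply, h2, add_zero]; exact hr₁x
            · rw [map_add, LinearMap.add_apply, h1, zero_add]; exact hr₂x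
          · exact ⟨r₂, hr₂, h2, hr₂x⟩
        · exact ⟨r₁, hr₁, hr₁x, h1⟩
      obtain ⟨t₁, ht₁, hi₁, he₁, hf₁⟩ := step x (x + r) (by rw [add_sub_cancel_left]; exact hrx)
      obtain ⟨t₂, ht₂, hi₂, he₂, hf₂⟩ := step (x + r) (g x) (by
        simp only [map_sub, map_add, LinearMap.sub_apply, LinearMap.add_apply, hself]
        rw [h0', hneg (g x) r, hneg x r]
        intro h
        apply hrgx
        linear_combination -h)
      refine ⟨t₂ * t₁, H.mul_mem ht₂ ht₁, ?_, ?_, ?_⟩
      · intro a b
        rw [LinearEquiv.mul_apply, LinearEquiv.mul_apply, hi₂, hi₁]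
      · rw [LinearEquiv.mul_apply, he₁, he₂]
      · intro w hw
        rw [LinearEquiv.mul_apply, hf₁ w (by rw [add_sub_cancel_left]; exact hr w hw), hf₂ w]
        have h1 := hP x w hw
        have h2 := hr w hw
        rw [map_sub, LinearMap.sub_apply] at h1
        rw [map_sub, map_add, LinearMap.sub_apply, LinearMap.add_apply, h2]
        linear_combination h1
    · obtain ⟨t, ht, hi, he, hf⟩ := step x (g x) h0
      refine ⟨t, ht, hi, he, fun w hw => hf w ?_⟩
      rw [map_sub, LinearMap.sub_apply]
      nth_rewrite 1 [← mem_Fx.1 hw]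
      rw [hg, sub_self]
  have main : ∀ (n : ℕ) (g : V ≃ₗ[F] V), (∀ x y, B (g x) (g y) = B x y) → finrank F V - finrank F (Fx g) ≤ n → g ∈ H := by
    intro n
    induction n with
    | zero =>
      intro g hg hn
      have h1 : Fx g = ⊤ := by
        apply Submodule.eq_top_of_finrank_eq
        have := Submodule.finrank_le (Fx g)
        omega
      have h2 : g = 1 := by
        ext x
        have : x ∈ Fx g := by rw [h1]; trivial
        exact this
      rw [h2]; exact H.one_mem
    | succ n ih =>
      intro g hg hn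
      by_cases h1 : ∀ x, g x = x
      · have h2 : g = 1 := by ext x; exact h1 x
        rw [h2]; exact H.one_mem
      · push Not at h1
        obtain ⟨x, hx⟩ := h1
        obtain ⟨t, ht, hi, he, hf⟩ := key g hg x hx
        have hti : ∀ x y, B (t⁻¹ x) (t⁻¹ y) = B x y := by
          intro a b
          rw [← hi (t⁻¹ a) (t⁻¹ b)]
          congr 2
          · congr 1; exact t.apply_symm_apply a
          · exact t.apply_symm_apply b
        have h3 : t⁻¹ * g ∈ H := by
          apply ih
          · intro a b
            rw [LinearEquiv.mul_apply, LinearEquiv.mul_apply, hti, hg]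
          · have h4 : Fx g < Fx (t⁻¹ * g) := by
              rw [SetLike.lt_iff_le_and_exists]
              refine ⟨?_, x, ?_, hx⟩
              · intro w hw
                rw [mem_Fx, LinearEquiv.mul_apply, mem_Fx.1 hw]
                have h5 := hf w hw
                nth_rewrite 1 [← h5]
                exact t.symm_apply_apply w
              · rw [mem_Fx, LinearEquiv.mul_apply, ← he]
                exact t.symm_apply_apply x
            have h5 := Submodule.finrank_lt_finrank_of_lt h4
            omega
        have h4 : g = t * (t⁻¹ * g) := by group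
        rw [h4]
        exact H.mul_mem ht h3
  intro g hg
  exact main _ g hg le_rfl

theorem det_one_mem (hT : ∀ (v : V) (f : Dual F V), f v = 0 → R H v f) (g : V ≃ₗ[F] V)
    (hg : LinearMap.det (g : V →ₗ[F] V) = 1) : g ∈ H := by
  classical
  let b := finBasis F V
  let K : Subgroup (Matrix.SpecialLinearGroup (Fin (finrank F V)) F) :=
    { carrier := {M | ∃ g ∈ H, LinearMap.toMatrix b b (g : V →ₗ[F] V) = (M : Matrix _ _ F)}
      mul_mem' := by
        rintro M N ⟨g, hg, hM⟩ ⟨h, hh, hN⟩
        refine ⟨g * h, H.mul_mem hg hh, ?_⟩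
        rw [Matrix.SpecialLinearGroup.coe_mul, ← hM, ← hN, ← LinearMap.toMatrix_mul]
        rfl
      one_mem' := ⟨1, H.one_mem, by
        rw [Matrix.SpecialLinearGroup.coe_one]
        exact LinearMap.toMatrix_one b⟩
      inv_mem' := by
        rintro M ⟨g, hg, hM⟩
        refine ⟨g⁻¹, H.inv_mem hg, ?_⟩
        have h1 : LinearMap.toMatrix b b ((g⁻¹ : V ≃ₗ[F] V) : V →ₗ[F] V) * M.1 = 1 := by
          have hM' : LinearMap.toMatrix b b (g : V →ₗ[F] V) = M.1 := hM
          rw [← hM', ← LinearMap.toMatrix_mul]
          have : ((g⁻¹ : V ≃ₗ[F] V) : V →ₗ[F] V) * (g : V →ₗ[F] V) = 1 := by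
            ext x
            exact g.symm_apply_apply x
          rw [this, LinearMap.toMatrix_one]
        have h2 : M.1 * (M⁻¹).1 = 1 := congrArg Subtype.val (mul_inv_cancel M)
        have h3 : LinearMap.toMatrix b b ((g⁻¹ : V ≃ₗ[F] V) : V →ₗ[F] V) =
            LinearMap.toMatrix b b ((g⁻¹ : V ≃ₗ[F] V) : V →ₗ[F] V) * (M.1 * (M⁻¹).1) := by rw [h2, mul_one]
        rw [h3, ← mul_assoc, h1, one_mul] }
  have hK : K = ⊤ := by
    apply Cfsg.Agent.H40.sl_eq_top_of_transvections
    intro i j hij c
    have h1 : (c • b.coord j) (b i) = 0 := by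
      rw [LinearMap.smul_apply, Basis.coord_apply, Basis.repr_self, Finsupp.single_eq_of_ne (Ne.symm hij), smul_zero]
    obtain ⟨h2, h3⟩ := hT (b i) (c • b.coord j) h1
    refine ⟨_, h3, ?_⟩
    ext k l
    rw [LinearMap.toMatrix_apply]
    show b.repr (LinearEquiv.transvection h2 (b l)) k = Matrix.transvection i j c k l
    rw [tv_apply, map_add, map_smul, LinearMap.smul_apply, Basis.coord_apply, Basis.repr_self, Basis.repr_self,
      Finsupp.add_apply, Finsupp.smul_apply, Matrix.transvection, Matrix.add_apply, Matrix.one_apply, Matrix.single_apply]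
    simp only [Finsupp.single_apply, smul_eq_mul]
    by_cases h4 : j = l <;> by_cases h5 : i = k <;> by_cases h6 : l = k <;> simp [h4, h5, h6, eq_comm] <;> tauto
  have hgK : (⟨LinearMap.toMatrix b b (g : V →ₗ[F] V), by rw [LinearMap.det_toMatrix]; exact hg⟩ : Matrix.SpecialLinearGroup _ F) ∈ K := by
    rw [hK]; trivial
  obtain ⟨g', hg', he⟩ := hgK
  have h1 : (g' : V →ₗ[F] V) = (g : V →ₗ[F] V) := (LinearMap.toMatrix b b).injective he
  have h2 : g' = g := by
    ext x
    exact LinearMap.congr_fun h1 x
  rw [← h2]; exact hg'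

end Cfsg.Agent.H93.McL
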