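import Mathlib
import Cfsg.Agent.H93.McL.Gen

/-!
Few transvections generating an irreducible transvection group; transitivity on transvections.
-/

set_option autoImplicit false

namespace Cfsg.Agent.H93.McL

open Module

variable {F E : Type*} [Field F] [AddCommGroup E] [Module F E]
variable {K : Subgroup (E ≃ₗ[F] E)}

/-- a nontrivial transvection pair of `K` -/
def Pt (K : Subgroup (E ≃ₗ[F] E)) (q : E × Dual F E) : Prop := q.1 ≠ 0 ∧ q.2 ≠ 0 ∧ R K q.1 q.2

theorem exists_both {f g : Dual F E} (hf : f ≠ 0) (hg : g ≠ 0) : ∃ u, f u ≠ 0 ∧ g u ≠ 0 := by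
  obtain ⟨a, ha⟩ := exists_ne_zero_apply hf
  obtain ⟨b, hb⟩ := exists_ne_zero_apply hg
  by_cases h1 : g a = 0
  · by_cases h2 : f b = 0
    · exact ⟨a + b, by rw [map_add, h2, add_zero]; exact ha, by rw [map_add, h1, zero_add]; exact hb⟩
    · exact ⟨b, h2, hb⟩
  · exact ⟨a, ha, h1⟩

theorem exists_both_one {f g : Dual F E} (hf : f ≠ 0) (h : ¬ ∃ c : F, g = c • f) : ∃ u, f u = 1 ∧ g u = 1 := by
  have h1 : ∃ w, f w = 0 ∧ g w ≠ 0 := by
    by_contra hcon
    push Not at hcon
    exact h (prop_of_ker hcon)
  obtain ⟨w, hfw, hgw⟩ := h1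
  obtain ⟨a, ha⟩ := exists_ne_zero_apply hf
  refine ⟨(f a)⁻¹ • a + ((1 - (f a)⁻¹ * g a) / g w) • w, ?_, ?_⟩
  · rw [map_add, map_smul, map_smul, hfw, smul_eq_mul, smul_zero, add_zero, inv_mul_cancel₀ ha]
  · rw [map_add, map_smul, map_smul, smul_eq_mul, smul_eq_mul]
    field_simp
    ring

/-- transitivity of the linear group on flags -/
theorem flag_trans (hall : ∀ (v : E) (f : Dual F E), f v = 0 → R K v f) {v w : E} {f g : Dual F E} (hv : v ≠ 0) (hw : w ≠ 0)
    (hf : f ≠ 0) (hg : g ≠ 0) (hfv : f v = 0) (hgw : g w = 0) :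
    ∃ k ∈ K, k v = w ∧ ∃ c : F, c ≠ 0 ∧ f ∘ₗ (k.symm : E →ₗ[F] E) = c • g := by
  have step : ∀ a b : E, a ≠ 0 → (¬ ∃ c : F, b = c • a) → ∃ k ∈ K, k a = b := by
    intro a b ha hab
    have hspan : b ∉ Submodule.span F {a} := by
      intro h
      obtain ⟨c, hc⟩ := Submodule.mem_span_singleton.1 h
      exact hab ⟨c, hc.symm⟩
    obtain ⟨h, hh1, hh2⟩ : ∃ h : Dual F E, h a = 1 ∧ h (b - a) = 0 := by
        obtain ⟨f1, hf1b, hf1a⟩ := Submodule.exists_le_ker_of_notMem hspan
        have hf1a' : f1 a = 0 := hf1a (Submodule.mem_span_singleton_self a)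
        obtain ⟨f2, hf2⟩ : ∃ f2 : Dual F E, f2 a ≠ 0 := by
          by_contra hcon
          push Not at hcon
          exact ha ((Module.forall_dual_apply_eq_zero_iff F a).1 hcon)
        refine ⟨(f2 a)⁻¹ • f2 + ((1 - (f2 a)⁻¹ * f2 b) / f1 b) • f1, ?_, ?_⟩
        · rw [LinearMap.add_apply, LinearMap.smul_apply, LinearMap.smul_apply, hf1a', smul_zero, add_zero, smul_eq_mul,
            inv_mul_cancel₀ hf2]
        · rw [map_sub, LinearMap.add_apply, LinearMap.add_apply, LinearMap.smul_apply, LinearMap.smul_apply, LinearMap.smul_apply,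
            LinearMap.smul_apply, hf1a']
          simp only [smul_eq_mul]
          field_simp
          ring
    have h3 := hall (b - a) h hh2
    refine ⟨_, h3.2, ?_⟩
    rw [tv_apply, hh1, one_smul]; abel
  have h1 : ∃ k ∈ K, k v = w := by
    by_cases hvw : ∃ c : F, w = c • v
    · obtain ⟨c, hc⟩ := hvw
      have hc0 : c ≠ 0 := by rintro rfl; rw [zero_smul] at hc; exact hw hc
      obtain ⟨u, hu⟩ : ∃ u : E, ¬ ∃ c : F, u = c • v := by
        by_contra hcon
        push Not at hcon
        apply hf
        ext z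
        obtain ⟨c, hz⟩ := hcon z
        rw [hz, map_smul, hfv, smul_zero]; rfl
      obtain ⟨k₁, hk₁, h₁⟩ := step v u hv hu
      have hu0 : u ≠ 0 := by rintro rfl; exact hu ⟨0, (zero_smul F v).symm⟩
      obtain ⟨k₂, hk₂, h₂⟩ := step u w hu0 (by
        rintro ⟨d, hd⟩
        have hd0 : d ≠ 0 := by rintro rfl; rw [zero_smul] at hd; exact hw hd
        apply hu
        refine ⟨d⁻¹ * c, ?_⟩
        rw [mul_smul, ← hc, hd, smul_smul, inv_mul_cancel₀ hd0, one_smul])
      exact ⟨k₂ * k₁, K.mul_mem hk₂ hk₁, by rw [LinearEquiv.mul_apply, h₁, h₂]⟩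
    · exact step v w hv hvw
  obtain ⟨k, hk, hkv⟩ := h1
  set f' : Dual F E := f ∘ₗ (k.symm : E →ₗ[F] E) with hf'
  have hf'w : f' w = 0 := by
    rw [hf', LinearMap.comp_apply, ← hkv]
    show f (k.symm (k v)) = 0
    rw [k.symm_apply_apply, hfv]
  have hf'0 : f' ≠ 0 := by
    intro h
    apply hf
    ext z
    have := LinearMap.congr_fun h (k z)
    rw [hf', LinearMap.comp_apply] at this
    have e : (k.symm : E →ₗ[F] E) (k z) = z := k.symm_apply_apply z
    rw [e] at this
    exact this
  by_cases hpr : ∃ c : F, g = c • f'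
  · obtain ⟨c, hc⟩ := hpr
    have hc0 : c ≠ 0 := by rintro rfl; rw [zero_smul] at hc; exact hg hc
    exact ⟨k, hk, hkv, c⁻¹, inv_ne_zero hc0, by rw [hc, smul_smul, inv_mul_cancel₀ hc0, one_smul]⟩
  · obtain ⟨u, hfu, hgu⟩ := exists_both_one hf'0 hpr
    have h2 := hall u (f' - g) (by rw [LinearMap.sub_apply, hfu, hgu, sub_self])
    refine ⟨LinearEquiv.transvection h2.1 * k, K.mul_mem h2.2 hk, ?_, 1, one_ne_zero, ?_⟩
    · rw [LinearEquiv.mul_apply, hkv, tv_apply, LinearMap.sub_apply, hf'w, hgw, sub_self, zero_smul, add_zero]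
    · ext z
      rw [one_smul]
      have e1 : ((LinearEquiv.transvection h2.1 * k).symm : E →ₗ[F] E) z = k.symm (z - (f' - g) z • u) := by
        show k.symm ((LinearEquiv.transvection h2.1).symm z) = _
        congr 1
        rw [LinearEquiv.symm_apply_eq, tv_apply, map_sub, map_smul, h2.1, smul_zero, sub_zero, sub_add_cancel]
      rw [LinearMap.comp_apply, e1]
      show f' (z - (f' - g) z • u) = g z
      rw [map_sub, map_smul, hfu, LinearMap.sub_apply, smul_eq_mul]
      ring

/-- transitivity of the symplectic group on vectors -/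
theorem vec_trans {B : LinearMap.BilinForm F E} (hB : B.IsAlt) (hnd : B.Nondegenerate) (hR : ∀ v : E, ∀ c : F, R K v (c • B v))
    {v w : E} (hv : v ≠ 0) (hw : w ≠ 0) : ∃ k ∈ K, k v = w := by
  have hneg : ∀ x y, B x y = - B y x := fun x y => by rw [hB.neg_eq y x |>.symm]
  have hself : ∀ x, B x x = 0 := fun x => hB x
  have step : ∀ a b : E, B a b ≠ 0 → ∃ k ∈ K, k a = b := by
    intro a b hab
    have h1 : B (b - a) a ≠ 0 := by
      rw [map_sub, LinearMap.sub_apply, hself, sub_zero, hneg]
      exact neg_ne_zero.2 hab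
    have h2 := hR (b - a) (B (b - a) a)⁻¹
    refine ⟨_, h2.2, ?_⟩
    rw [tv_apply, LinearMap.smul_apply, smul_eq_mul, inv_mul_cancel₀ h1, one_smul]; abel
  have hB0 : ∀ x : E, x ≠ 0 → B x ≠ 0 := by
    intro x hx h
    exact hx (hnd.1 x (fun y => by rw [h]; rfl))
  obtain ⟨u, h1, h2⟩ := exists_both (hB0 v hv) (hB0 w hw)
  obtain ⟨k₁, hk₁, e₁⟩ := step v u h1
  obtain ⟨k₂, hk₂, e₂⟩ := step u w (by rw [hneg]; exact neg_ne_zero.2 h2)
  exact ⟨k₂ * k₁, K.mul_mem hk₂ hk₁, by rw [LinearEquiv.mul_apply, e₁, e₂]⟩

variable [FiniteDimensional F E]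

/-- all nontrivial transvections of an irreducible transvection group are conjugate up to scalars -/
theorem pt_trans (hF : ∃ a : F, a ≠ 0 ∧ a ≠ 1) (hsc : Scal K) (hirr : Irr K) {q r : E × Dual F E} (hq : Pt K q) (hr : Pt K r) :
    ∃ k ∈ K, k q.1 = r.1 ∧ ∃ c : F, c ≠ 0 ∧ q.2 ∘ₗ (k.symm : E →ₗ[F] E) = c • r.2 := by
  rcases dichotomy hF hsc hirr with h | ⟨B, hB, hnd, h⟩
  · exact flag_trans h hq.1 hr.1 hq.2.1 hr.2.1 hq.2.2.1 hr.2.2.1
  · have hR : ∀ v : E, ∀ c : F, R K v (c • B v) := by
      intro v c
      by_cases hv : v = 0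
      · rw [hv]; exact R_zero_left _
      · exact (h v _ hv).2 ⟨c, rfl⟩
    obtain ⟨k, hk, hkv⟩ := vec_trans hB hnd hR hq.1 hr.1
    refine ⟨k, hk, hkv, ?_⟩
    have h1 := R_conj hk hq.2.2
    rw [hkv] at h1
    obtain ⟨a, ha⟩ := (h r.1 _ hr.1).1 h1
    obtain ⟨b, hb⟩ := (h r.1 _ hr.1).1 hr.2.2
    have hb0 : b ≠ 0 := by
      rintro rfl
      rw [zero_smul] at hb
      exact hr.2.1 hb
    have ha0 : a ≠ 0 := by
      rintro rfl
      rw [zero_smul] at ha
      apply hq.2.1
      ext z
      have := LinearMap.congr_fun ha (k z)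
      rw [LinearMap.comp_apply] at this
      have e : (k.symm : E →ₗ[F] E) (k z) = z := k.symm_apply_apply z
      rw [e] at this
      exact this
    refine ⟨a / b, div_ne_zero ha0 hb0, ?_⟩
    rw [ha, hb, smul_smul, div_mul_cancel₀ _ hb0]

/-- few transvections are enough -/
theorem pick (hF : ∃ a : F, a ≠ 0 ∧ a ≠ 1) (hsc : Scal K) (hirr : Irr K) {q₀ : E × Dual F E} (hq₀ : Pt K q₀) :
    ∃ q : Fin (finrank F E) → E × Dual F E, (∀ j, Pt K (q j)) ∧
      ∀ M : Subgroup (E ≃ₗ[F] E), Scal M → M ≤ K → (∀ j, R M (q j).1 (q j).2) → ∀ v f, R K v f → R M v f := by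
  classical
  rcases dichotomy hF hsc hirr with h | ⟨B, hB, hnd, h⟩
  · -- linear case
    have hm : 2 ≤ finrank F E := by
      by_contra hlt
      have h1 : finrank F E ≤ 1 := by omega
      have h2 : finrank F (Submodule.span F {q₀.1}) = 1 := finrank_span_singleton hq₀.1
      have h3 : Submodule.span F {q₀.1} = ⊤ := by
        apply Submodule.eq_top_of_finrank_eq
        have := Submodule.finrank_le (Submodule.span F {q₀.1})
        omega
      apply hq₀.2.1
      ext z
      have hz : z ∈ Submodule.span F {q₀.1} := by rw [h3]; trivial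
      obtain ⟨c, rfl⟩ := Submodule.mem_span_singleton.1 hz
      rw [map_smul, hq₀.2.2.1, smul_zero]; rfl
    have : NeZero (finrank F E) := ⟨by omega⟩
    let b := finBasis F E
    have hne : ∀ j : Fin (finrank F E), j + 1 ≠ j := by
      intro j hj
      have h1 : (1 : Fin (finrank F E)) = 0 := by
        have := congrArg (fun x => x - j) hj
        simpa using this
      have h2 : ((1 : Fin (finrank F E)) : ℕ) = 0 := by rw [h1]; rfl
      rw [Fin.val_one'] at h2
      rw [Nat.mod_eq_of_lt (by omega)] at h2
      omega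
    have hco : ∀ i j, b.coord i (b j) = if j = i then 1 else 0 := by
      intro i j
      rw [Basis.coord_apply, Basis.repr_self, Finsupp.single_apply]
    have hz : ∀ j, b.coord (j + 1) (b j) = 0 := fun j => by rw [hco, if_neg (hne j).symm]
    have hc0 : ∀ j, b.coord j ≠ 0 := by
      intro j hj
      have := hco j j
      rw [hj, if_pos rfl, LinearMap.zero_apply] at this
      exact zero_ne_one this
    refine ⟨fun j => (b j, b.coord (j + 1)), fun j => ⟨b.ne_zero j, hc0 _, h _ _ (hz j)⟩, ?_⟩
    intro M hscM hMK hM v f hvf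
    have hirrM : Irr M := by
      intro U hU
      have h1 : ∀ j, b j ∉ U → ∀ u ∈ U, b.coord (j + 1) u = 0 := by
        intro j hj u hu
        by_contra hcu
        apply hj
        have h2 := hU _ _ (hM j) u hu
        have h3 := U.sub_mem h2 hu
        rw [add_sub_cancel_left] at h3
        have h4 := U.smul_mem (b.coord (j + 1) u)⁻¹ h3
        simp only at h4
        rwa [smul_smul, inv_mul_cancel₀ hcu, one_smul] at h4
      have h2 : ∀ j, b (j + 1) ∈ U → b j ∈ U := by
        intro j hj
        by_contra hnj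
        have := h1 j hnj _ hj
        rw [hco, if_pos rfl] at this
        exact one_ne_zero this
      by_cases hex : ∃ i, b i ∈ U
      · right
        obtain ⟨i, hi⟩ := hex
        have h3 : ∀ n : ℕ, ∀ j, ((i - j : Fin (finrank F E)) : ℕ) = n → b j ∈ U := by
          intro n
          induction n with
          | zero =>
            intro j hj
            have h4 : i - j = 0 := Fin.ext hj
            rw [sub_eq_zero] at h4
            rw [← h4]; exact hi
          | succ n ih =>
            intro j hj
            apply h2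
            apply ih
            have h4 : i - j ≠ 0 := by
              intro h0
              rw [h0] at hj
              exact absurd hj (Nat.succ_ne_zero n).symm
            have h5 : i - (j + 1) = i - j - 1 := by abel
            rw [h5, Fin.val_sub_one_of_ne_zero h4, hj]
            omega
        have h4 : ∀ j, b j ∈ U := fun j => h3 _ j rfl
        rw [eq_top_iff, ← b.span_eq, Submodule.span_le]
        rintro _ ⟨j, rfl⟩
        exact h4 j
      · left
        push Not at hex
        rw [Submodule.eq_bot_iff]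
        intro u hu
        apply b.repr.injective
        ext j
        rw [map_zero, Finsupp.zero_apply, ← Basis.coord_apply]
        have := h1 (j - 1) (hex _) u hu
        rwa [sub_add_cancel] at this
    rcases dichotomy hF hscM hirrM with h' | ⟨B', hB', hnd', h'⟩
    · exact h' v f hvf.1
    · have hneg : ∀ x y, B' x y = - B' y x := fun x y => by rw [hB'.neg_eq y x |>.symm]
      -- the dimension is two
      have h2 : finrank F E = 2 := by
        let j : Fin (finrank F E) := 0
        obtain ⟨c, hc⟩ := (h' (b j) _ (b.ne_zero j)).1 (hM j)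
        obtain ⟨d, hd⟩ := (h' (b (j + 1)) _ (b.ne_zero _)).1 (hM (j + 1))
        simp only at hc hd
        have e1 : c * B' (b j) (b (j + 1)) = 1 := by
          have := hco (j + 1) (j + 1)
          rw [if_pos rfl, hc] at this
          exact this
        have e2 : d ≠ 0 := by
          rintro rfl
          rw [zero_smul] at hd
          exact hc0 _ hd
        have e3 : b.coord (j + 1 + 1) (b j) ≠ 0 := by
          rw [hd, LinearMap.smul_apply, smul_eq_mul, hneg]
          apply mul_ne_zero e2
          apply neg_ne_zero.2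
          intro h0
          rw [h0, mul_zero] at e1
          exact zero_ne_one e1
        rw [hco] at e3
        have e4 : j = j + 1 + 1 := by
          by_contra hcon
          exact e3 (if_neg hcon)
        have e5 : ((j + 1 + 1 : Fin (finrank F E)) : ℕ) = 2 % finrank F E := by
          simp [j, Fin.val_add]
        rw [← e4] at e5
        have e6 : (j : ℕ) = 0 := rfl
        rw [e6] at e5
        have e7 : finrank F E ∣ 2 := Nat.dvd_of_mod_eq_zero e5.symm
        have := Nat.le_of_dvd (by norm_num) e7
        omega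
      by_cases hv : v = 0
      · rw [hv]; exact R_zero_left f
      · rw [h' v f hv]
        apply prop_of_ker
        intro w hw
        have hB'v : B' v ≠ 0 := fun h0 => hv (hnd'.1 v (fun y => by rw [h0]; rfl))
        have hwv : w ∈ Submodule.span F {v} := by
          have h3 : Submodule.span F {v} = LinearMap.ker (B' v) := by
            apply Submodule.eq_of_le_of_finrank_eq
            · rw [Submodule.span_singleton_le_iff_mem]
              exact hB' v
            · rw [finrank_span_singleton hv]
              have h4 := LinearMap.finrank_range_add_finrank_ker (B' v)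
              have h5 : LinearMap.range (B' v) = ⊤ := LinearMap.range_eq_top.2 (LinearMap.surjective hB'v)
              rw [h5, finrank_top, finrank_self] at h4
              omega
          rw [h3]; exact hw
        obtain ⟨c, rfl⟩ := Submodule.mem_span_singleton.1 hwv
        rw [map_smul, hvf.1, smul_zero]
  · -- symplectic case
    have hneg : ∀ x y, B x y = - B y x := fun x y => by rw [hB.neg_eq y x |>.symm]
    have hB0 : ∀ x : E, x ≠ 0 → B x ≠ 0 := by
      intro x hx h0
      exact hx (hnd.1 x (fun y => by rw [h0]; rfl))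
    set e₀ := q₀.1
    have he₀ : e₀ ≠ 0 := hq₀.1
    obtain ⟨w₀, hw₀⟩ := exists_ne_zero_apply (hB0 e₀ he₀)
    have hs : LinearIndepOn F id ({e₀} : Set E) := by
      rw [linearIndepOn_singleton_iff]; exact he₀
    have hst : ({e₀} : Set E) ⊆ {w | w = e₀ ∨ B e₀ w ≠ 0} := by
      intro w hw
      left; exact hw
    have ht : ⊤ ≤ Submodule.span F {w | w = e₀ ∨ B e₀ w ≠ 0} := by
      intro v _
      by_cases hv : B e₀ v = 0
      · have h1 : v = (v + w₀) - w₀ := by abel
        rw [h1]
        apply Submodule.sub_mem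
        · apply Submodule.subset_span
          right
          rw [map_add, hv, zero_add]; exact hw₀
        · exact Submodule.subset_span (Or.inr hw₀)
      · exact Submodule.subset_span (Or.inr hv)
    let b' := Basis.extendLe hs hst ht
    have hfin := Module.Finite.finite_basis b'
    have := Fintype.ofFinite ↑(hs.extend hst)
    let b := b'.reindex (Fintype.equivFinOfCardEq (finrank_eq_card_basis b').symm)
    have hbmem : ∀ j, b j = e₀ ∨ B e₀ (b j) ≠ 0 := by
      intro j
      have h1 := Basis.extendLe_subset hs hst ht ⟨(Fintype.equivFinOfCardEq (finrank_eq_card_basis b').symm).symm j, rfl⟩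
      rw [Basis.reindex_apply]
      exact h1
    obtain ⟨j₀, hj₀⟩ : ∃ j, b j = e₀ := by
      obtain ⟨i, hi⟩ := Basis.subset_extendLe hs hst ht (Set.mem_singleton e₀)
      refine ⟨Fintype.equivFinOfCardEq (finrank_eq_card_basis b').symm i, ?_⟩
      rw [Basis.reindex_apply, Equiv.symm_apply_apply]
      exact hi
    refine ⟨fun j => (b j, B (b j)), fun j => ⟨b.ne_zero j, hB0 _ (b.ne_zero j), (h _ _ (b.ne_zero j)).2 ⟨1, (one_smul F _).symm⟩⟩, ?_⟩
    intro M hscM hMK hM v f hvf
    have hirrM : Irr M := by
      intro U hU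
      have h1 : ∀ j, b j ∉ U → ∀ u ∈ U, B (b j) u = 0 := by
        intro j hj u hu
        by_contra hcu
        apply hj
        have h2 := hU _ _ (hM j) u hu
        have h3 := U.sub_mem h2 hu
        rw [add_sub_cancel_left] at h3
        have h4 := U.smul_mem (B (b j) u)⁻¹ h3
        simp only at h4
        rwa [smul_smul, inv_mul_cancel₀ hcu, one_smul] at h4
      by_cases he : e₀ ∈ U
      · right
        rw [eq_top_iff, ← b.span_eq, Submodule.span_le]
        rintro _ ⟨j, rfl⟩
        rcases hbmem j with h2 | h2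
        · rw [h2]; exact he
        · by_contra h3
          apply h2
          rw [hneg, h1 j h3 e₀ he, neg_zero]
      · left
        rw [Submodule.eq_bot_iff]
        intro u hu
        apply hnd.2
        intro y
        have h3 : B.flip u = 0 := by
          apply b.ext
          intro j
          show B (b j) u = 0
          by_cases hj : b j ∈ U
          · rcases hbmem j with h4 | h4
            · exact absurd (by rw [← h4]; exact hj) he
            · exfalso
              apply h4
              have := h1 j₀ (by rw [hj₀]; exact he) _ hj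
              rwa [hj₀] at this
          · exact h1 j hj u hu
        exact LinearMap.congr_fun h3 y
    rcases dichotomy hF hscM hirrM with h' | ⟨B', hB', hnd', h'⟩
    · exact h' v f hvf.1
    · by_cases hv : v = 0
      · rw [hv]; exact R_zero_left f
      · obtain ⟨c, hc⟩ := (h v f hv).1 hvf
        have h1 : R M v (B' v) := (h' v _ hv).2 ⟨1, (one_smul F _).symm⟩
        obtain ⟨d, hd⟩ := (h v _ hv).1 (show R K v (B' v) from ⟨h1.1, hMK h1.2⟩)
        have hB'v : B' v ≠ 0 := fun h0 => hv (hnd'.1 v (fun y => by rw [h0]; rfl))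
        have hd0 : d ≠ 0 := by
          rintro rfl
          rw [zero_smul] at hd
          exact hB'v hd
        have h2 : R M v (B v) := R_smul_cancel hscM hd0 (by rw [← hd]; exact h1)
        rw [hc]
        exact hscM _ _ _ h2

end Cfsg.Agent.H93.McL
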