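import Mathlib
import Cfsg.Agent.H93.McL.Pick

/-!
Connected transvection groups over a prime field.
-/

set_option autoImplicit false

namespace Cfsg.Agent.H93.McL

open Module

variable {p : ℕ} [Fact p.Prime] {V : Type*} [AddCommGroup V] [Module (ZMod p) V]

theorem scal (K : Subgroup (V ≃ₗ[ZMod p] V)) : Scal K := by
  intro v f c h
  have h1 : ∀ n : ℕ, R K v ((n : ZMod p) • f) := by
    intro n
    induction n with
    | zero => rw [Nat.cast_zero, zero_smul]; exact R_zero_right v
    | succ n ih =>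
      rw [Nat.cast_add, Nat.cast_one, add_smul, one_smul]
      exact R_add_right ih h
  have := h1 c.val
  rwa [ZMod.natCast_zmod_val] at this

theorem hFp (hp : Odd p) : ∃ a : ZMod p, a ≠ 0 ∧ a ≠ 1 := by
  have hpr : p.Prime := Fact.out
  have hp3 : 3 ≤ p := by
    have := hpr.two_le
    rcases hp with ⟨k, hk⟩
    omega
  refine ⟨2, ?_, ?_⟩
  · intro h
    have h1 : ((2 : ℕ) : ZMod p) = 0 := by exact_mod_cast h
    rw [ZMod.natCast_eq_zero_iff] at h1
    have := Nat.le_of_dvd (by norm_num) h1
    omega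
  · intro h
    have h1 : (1 : ZMod p) = 0 := by linear_combination h
    exact one_ne_zero h1

theorem pow_p_eq_one (hp : Odd p) (k : V ≃ₗ[ZMod p] V)
    (h : ∀ x, k (k (k x)) - (3 : ℕ) • k (k x) + (3 : ℕ) • k x - x = 0) : k ^ p = 1 := by
  rcases subsingleton_or_nontrivial V with hV | hV
  · ext x; exact Subsingleton.elim _ _
  have hpr : p.Prime := Fact.out
  have hp3 : 3 ≤ p := by
    have := hpr.two_le
    rcases hp with ⟨k, hk⟩
    omega
  have hch : CharP (Module.End (ZMod p) V) p :=
    charP_of_injective_algebraMap (algebraMap (ZMod p) (Module.End (ZMod p) V)).injective p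
  set N : Module.End (ZMod p) V := (k : V →ₗ[ZMod p] V) - 1 with hN
  have hN3 : N ^ 3 = 0 := by
    ext x
    have h1 := h x
    have h2 : (N ^ 3) x = k (k (k x)) - (3 : ℕ) • k (k x) + (3 : ℕ) • k x - x := by
      have e : ∀ y, N y = k y - y := fun y => rfl
      rw [pow_succ, pow_two, Module.End.mul_apply, Module.End.mul_apply, e, e, e]
      simp only [map_sub]
      abel
    rw [h2, h1]; rfl
  have hNp : N ^ p = 0 := by
    obtain ⟨m, hm⟩ := Nat.exists_eq_add_of_le hp3
    have h5 : N ^ p = N ^ 3 * N ^ m := by rw [← pow_add, ← hm]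
    rw [h5, hN3, zero_mul]
  have h1 : (k : Module.End (ZMod p) V) = N + 1 := by rw [hN, sub_add_cancel]
  have h2 : (N + 1) ^ p = N ^ p + 1 ^ p := add_pow_char_of_commute (p := p) (Commute.one_right N)
  have h3 : ((k : V ≃ₗ[ZMod p] V) : Module.End (ZMod p) V) ^ p = 1 := by
    rw [h1, h2, hNp, one_pow, zero_add]
  have h4 : ∀ n : ℕ, (((k ^ n : V ≃ₗ[ZMod p] V)) : Module.End (ZMod p) V) = (k : Module.End (ZMod p) V) ^ n := by
    intro n
    induction n with
    | zero => rfl
    | succ n ih => rw [pow_succ, pow_succ, ← ih]; rfl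
  ext x
  have := LinearMap.congr_fun (h4 p) x
  rw [h3] at this
  exact this

end Cfsg.Agent.H93.McL
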