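import Mathlib
import Cfsg.Agent.H93.McL.Conn

/-!
Connected transvection groups over a prime field: the commutator space and the fixed space.
-/

set_option autoImplicit false

namespace Cfsg.Agent.H93.McL

open Module

section general

variable {F V : Type*} [Field F] [AddCommGroup V] [Module F V]

/-- adjacency of pairs -/
def Adj (q r : V × Dual F V) : Prop := q.2 r.1 ≠ 0 ∨ r.2 q.1 ≠ 0

theorem Adj.symm {q r : V × Dual F V} (h : Adj q r) : Adj r q := Or.symm h

/-- the span of the centres -/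
def WW (K : Subgroup (V ≃ₗ[F] V)) : Submodule F V := Submodule.span F {v | ∃ f, f ≠ 0 ∧ R K v f}

/-- the common kernel of the axes -/
def CC (K : Subgroup (V ≃ₗ[F] V)) : Submodule F V where
  carrier := {x | ∀ v f, v ≠ 0 → R K v f → f x = 0}
  add_mem' h1 h2 v f hv hf := by rw [map_add, h1 v f hv hf, h2 v f hv hf, add_zero]
  zero_mem' v f _ _ := f.map_zero
  smul_mem' c y h v f hv hf := by rw [map_smul, h v f hv hf, smul_zero]

theorem mem_CC {K : Subgroup (V ≃ₗ[F] V)} {x : V} : x ∈ CC K ↔ ∀ v f, v ≠ 0 → R K v f → f x = 0 := Iff.rfl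

theorem mem_WW {K : Subgroup (V ≃ₗ[F] V)} {v : V} {f : Dual F V} (hf : f ≠ 0) (h : R K v f) : v ∈ WW K :=
  Submodule.subset_span ⟨f, hf, h⟩

/-- `K` is generated by transvections -/
def Gen (K : Subgroup (V ≃ₗ[F] V)) : Prop :=
  ∀ K' : Subgroup (V ≃ₗ[F] V), (∀ v f, R K v f → R K' v f) → K ≤ K'

variable {K : Subgroup (V ≃ₗ[F] V)}

theorem Gen.sub_mem (hg : Gen K) {U : Submodule F V} (hU : ∀ v f, f ≠ 0 → R K v f → v ∈ U) {k : V ≃ₗ[F] V} (hk : k ∈ K) (x : V) :
    k x - x ∈ U := by
  let K' : Subgroup (V ≃ₗ[F] V) :=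
    { carrier := {k | ∀ x, k x - x ∈ U}
      mul_mem' := by
        intro a b ha hb x
        have h1 := ha (b x)
        have h2 := hb x
        have := U.add_mem h1 h2
        rwa [sub_add_sub_cancel] at this
      one_mem' := fun x => by
        have : (1 : V ≃ₗ[F] V) x - x = 0 := sub_self x
        rw [this]; exact U.zero_mem
      inv_mem' := by
        intro a ha x
        have h1 := ha (a⁻¹ x)
        have e1 : a (a⁻¹ x) = x := a.apply_symm_apply x
        rw [e1] at h1
        have := U.neg_mem h1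
        rwa [neg_sub] at this }
  have := hg K' (by
    rintro v f ⟨h, hm⟩
    refine ⟨h, fun x => ?_⟩
    rw [tv_apply, add_sub_cancel_left]
    by_cases hf : f = 0
    · rw [hf, LinearMap.zero_apply, zero_smul]; exact U.zero_mem
    · exact U.smul_mem _ (hU v f hf ⟨h, hm⟩))
  exact this hk x

theorem Gen.sub_W (hg : Gen K) {k : V ≃ₗ[F] V} (hk : k ∈ K) (x : V) : k x - x ∈ WW K :=
  hg.sub_mem (fun _ _ hf h => mem_WW hf h) hk x

theorem Gen.fix_of (hg : Gen K) {x : V} (hx : ∀ v f, v ≠ 0 → R K v f → f x = 0) {k : V ≃ₗ[F] V} (hk : k ∈ K) : k x = x := by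
  let K' : Subgroup (V ≃ₗ[F] V) :=
    { carrier := {k | k x = x}
      mul_mem' := by
        intro a b ha hb
        show a (b x) = x
        rw [hb, ha]
      one_mem' := rfl
      inv_mem' := by
        intro a ha
        show a.symm x = x
        rw [LinearEquiv.symm_apply_eq]
        exact Eq.symm ha }
  have := hg K' (by
    rintro v f ⟨h, hm⟩
    refine ⟨h, ?_⟩
    show LinearEquiv.transvection h x = x
    rw [tv_apply]
    by_cases hv : v = 0
    · rw [hv, smul_zero, add_zero]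
    · rw [hx v f hv ⟨h, hm⟩, zero_smul, add_zero])
  exact this hk

theorem Gen.fix_C (hg : Gen K) {k : V ≃ₗ[F] V} (hk : k ∈ K) {x : V} (hx : x ∈ CC K) : k x = x :=
  hg.fix_of hx hk

theorem Gen.inv_of (hg : Gen K) {U : Submodule F V} (hU : Inv K U) {k : V ≃ₗ[F] V} (hk : k ∈ K) {x : V} (hx : x ∈ U) : k x ∈ U := by
  let K' : Subgroup (V ≃ₗ[F] V) :=
    { carrier := {k | ∀ x, k x ∈ U ↔ x ∈ U}
      mul_mem' := by
        intro a b ha hb x
        show a (b x) ∈ U ↔ _
        rw [ha, hb]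
      one_mem' := fun x => Iff.rfl
      inv_mem' := by
        intro a ha x
        have h1 := ha (a⁻¹ x)
        have e1 : a (a⁻¹ x) = x := a.apply_symm_apply x
        rw [e1] at h1
        exact h1.symm }
  have := hg K' (by
    rintro v f ⟨h, hm⟩
    refine ⟨h, fun x => ?_⟩
    constructor
    · intro hx
      have h1 := hU _ _ (R_conj (K.inv_mem hm) ⟨h, hm⟩) _ hx
      -- use inverse transvection
      have hm2 := K.inv_mem hm
      have h2 : R K v (-f) := by
        refine ⟨by rw [LinearMap.neg_apply, h, neg_zero], ?_⟩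
        have : LinearEquiv.transvection (show (-f) v = 0 by rw [LinearMap.neg_apply, h, neg_zero]) = (LinearEquiv.transvection h)⁻¹ := by
          symm
          rw [inv_eq_iff_mul_eq_one]
          ext y
          rw [LinearEquiv.mul_apply, tv_apply, tv_apply, map_add, map_smul, LinearMap.neg_apply, h, smul_zero, add_zero,
            neg_smul]
          show y + _ + _ = y
          abel
        rw [this]; exact hm2
      have h3 := hU _ _ h2 _ hx
      rw [tv_apply, LinearMap.neg_apply, map_add, map_smul, h, smul_zero, add_zero, neg_smul, add_neg_cancel_right] at h3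
      exact h3
    · intro hx
      rw [tv_apply]
      exact hU v f ⟨h, hm⟩ x hx)
  exact (this hk x).2 hx

theorem inv_CC : Inv K (CC K) := by
  intro v f h u hu
  by_cases hv : v = 0
  · rw [hv, smul_zero, add_zero]; exact hu
  · rw [hu v f hv h, zero_smul, add_zero]; exact hu

theorem inv_WW : Inv K (WW K) := by
  intro v f h u hu
  by_cases hf : f = 0
  · rw [hf, LinearMap.zero_apply, zero_smul, add_zero]; exact hu
  · exact (WW K).add_mem hu ((WW K).smul_mem _ (mem_WW hf h))

end general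

variable {p : ℕ} [Fact p.Prime] {V : Type*} [AddCommGroup V] [Module (ZMod p) V]

structure Conn (K : Subgroup (V ≃ₗ[ZMod p] V)) : Prop where
  gen : Gen K
  conn : ∀ S : Set (V × Dual (ZMod p) V), (∃ q ∈ S, Pt K q) → (∀ q r, Pt K q → Pt K r → Adj q r → q ∈ S → r ∈ S) →
    ∀ q, Pt K q → q ∈ S
  ne : ∃ q : V × Dual (ZMod p) V, Pt K q
  pfree : ∀ D : Subgroup (V ≃ₗ[ZMod p] V), D ≤ K → (∀ k ∈ K, ∀ d ∈ D, k * d * k⁻¹ ∈ D) → (∀ d ∈ D, d ^ p = 1) → D = ⊥

variable {K : Subgroup (V ≃ₗ[ZMod p] V)}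

/-- the elements acting trivially on `U`, on `V / U` -/
def Dsub (K : Subgroup (V ≃ₗ[ZMod p] V)) (U : Submodule (ZMod p) V) : Subgroup (V ≃ₗ[ZMod p] V) where
  carrier := {k | k ∈ K ∧ (∀ x, k x - x ∈ U) ∧ ∀ u ∈ U, k u = u}
  mul_mem' := by
    rintro a b ⟨ha1, ha2, ha3⟩ ⟨hb1, hb2, hb3⟩
    refine ⟨K.mul_mem ha1 hb1, fun x => ?_, fun u hu => ?_⟩
    · have h1 := ha2 (b x)
      have h2 := hb2 x
      have := U.add_mem h1 h2
      rwa [sub_add_sub_cancel] at this
    · show a (b u) = u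
      rw [hb3 u hu, ha3 u hu]
  one_mem' := ⟨K.one_mem, fun x => by
    have : (1 : V ≃ₗ[ZMod p] V) x - x = 0 := sub_self x
    rw [this]; exact U.zero_mem, fun u _ => rfl⟩
  inv_mem' := by
    rintro a ⟨ha1, ha2, ha3⟩
    refine ⟨K.inv_mem ha1, fun x => ?_, fun u hu => ?_⟩
    · have h1 := ha2 (a⁻¹ x)
      have e1 : a (a⁻¹ x) = x := a.apply_symm_apply x
      rw [e1] at h1
      have := U.neg_mem h1
      rwa [neg_sub] at this
    · show a.symm u = u
      rw [LinearEquiv.symm_apply_eq]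
      exact (ha3 u hu).symm

theorem Conn.Dsub_eq (hp : Odd p) (hK : Conn K) {U : Submodule (ZMod p) V} (hU : Inv K U) : Dsub K U = ⊥ := by
  apply hK.pfree
  · exact fun k hk => hk.1
  · rintro k hk d ⟨hd1, hd2, hd3⟩
    refine ⟨K.mul_mem (K.mul_mem hk hd1) (K.inv_mem hk), fun x => ?_, fun u hu => ?_⟩
    · have h1 := hd2 (k⁻¹ x)
      have h2 := hK.gen.inv_of hU hk h1
      rw [map_sub] at h2
      have e1 : k (k⁻¹ x) = x := k.apply_symm_apply x
      rw [e1] at h2
      exact h2
    · show k (d (k⁻¹ u)) = u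
      rw [hd3 _ (hK.gen.inv_of hU (K.inv_mem hk) hu)]
      exact k.apply_symm_apply u
  · rintro d ⟨hd1, hd2, hd3⟩
    apply pow_p_eq_one hp
    intro x
    have h1 := hd3 _ (hd2 x)
    rw [map_sub] at h1
    have h2 : d (d x) = d x + (d x - x) := by rw [← h1]; abel
    have h3 : d (d (d x)) = d (d x) + (d x - x) := by
      have := congrArg d h2
      rw [map_add, map_sub, h1] at this
      exact this
    rw [h3, h2]
    abel

theorem Conn.not_both (hp : Odd p) (hK : Conn K) {U : Submodule (ZMod p) V} (hU : Inv K U) {v : V} {f : Dual (ZMod p) V}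
    (hv : v ≠ 0) (hf : f ≠ 0) (h : R K v f) (h1 : v ∈ U) (h2 : ∀ u ∈ U, f u = 0) : False := by
  have h3 : LinearEquiv.transvection h.1 ∈ Dsub K U := by
    refine ⟨h.2, fun x => ?_, fun u hu => ?_⟩
    · rw [tv_apply, add_sub_cancel_left]; exact U.smul_mem _ h1
    · rw [tv_apply, h2 u hu, zero_smul, add_zero]
  rw [hK.Dsub_eq hp hU, Subgroup.mem_bot] at h3
  obtain ⟨w, hw⟩ := exists_ne_zero_apply hf
  have h4 := LinearEquiv.congr_fun h3 w
  rw [tv_apply] at h4
  have h5 : f w • v = 0 := by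
    have : (1 : V ≃ₗ[ZMod p] V) w = w := rfl
    rw [this] at h4
    exact add_eq_left.1 h4
  rcases smul_eq_zero.1 h5 with h6 | h6
  · exact hw h6
  · exact hv h6

/-- an invariant subspace contains `WW` or is contained in `CC` -/
theorem Conn.s1 (hp : Odd p) (hK : Conn K) {U : Submodule (ZMod p) V} (hU : Inv K U) : WW K ≤ U ∨ U ≤ CC K := by
  by_cases hex : ∃ q : V × Dual (ZMod p) V, q ∈ {q : V × Dual (ZMod p) V | q.1 ∈ U} ∧ Pt K q
  · left
    have := hK.conn {q | q.1 ∈ U} hex (by
      intro q r hq hr hqr hqU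
      by_contra hrU
      have hr2 : ∀ u ∈ U, r.2 u = 0 := by
        intro u hu
        by_contra hne
        apply hrU
        have h1 := hU _ _ hr.2.2 u hu
        have h2 := U.sub_mem h1 hu
        rw [add_sub_cancel_left] at h2
        exact (U.smul_mem_iff hne).1 h2
      have h3 : r.2 q.1 = 0 := hr2 _ hqU
      have h4 : q.2 r.1 ≠ 0 := by
        rcases hqr with h | h
        · exact h
        · exact absurd h3 h
      have h5 := R_comm (scal K) hq.2.2 hr.2.2 h3 h4
      exact hK.not_both hp hU hq.1 hr.2.1 h5 hqU hr2)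
    apply Submodule.span_le.2
    rintro v ⟨f, hf, h⟩
    by_cases hv : v = 0
    · rw [hv]; exact U.zero_mem
    · exact this (v, f) ⟨hv, hf, h⟩
  · right
    push Not at hex
    intro u hu v f hv h
    by_contra hne
    apply hex (v, f)
    · have h1 := hU _ _ h u hu
      have h2 := U.sub_mem h1 hu
      rw [add_sub_cancel_left] at h2
      exact (U.smul_mem_iff hne).1 h2
    · exact ⟨hv, by rintro rfl; exact hne rfl, h⟩

theorem Conn.ctr_not_mem (hp : Odd p) (hK : Conn K) {v : V} {f : Dual (ZMod p) V} (hv : v ≠ 0) (hf : f ≠ 0) (h : R K v f) :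
    v ∉ CC K := fun h1 => hK.not_both hp inv_CC hv hf h h1 (fun _ hu => hu v f hv h)

theorem Conn.axis_ne (hp : Odd p) (hK : Conn K) {v : V} {f : Dual (ZMod p) V} (hv : v ≠ 0) (hf : f ≠ 0) (h : R K v f) :
    ∃ w ∈ WW K, f w ≠ 0 := by
  by_contra hcon
  push Not at hcon
  exact hK.not_both hp inv_WW hv hf h (mem_WW hf h) hcon

theorem Conn.faith (hp : Odd p) (hK : Conn K) {k : V ≃ₗ[ZMod p] V} (hk : k ∈ K) (h : ∀ w ∈ WW K, k w - w ∈ CC K) : k = 1 := by
  let D : Subgroup (V ≃ₗ[ZMod p] V) :=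
    { carrier := {k | k ∈ K ∧ ∀ w ∈ WW K, k w - w ∈ CC K}
      mul_mem' := by
        rintro a b ⟨ha1, ha2⟩ ⟨hb1, hb2⟩
        refine ⟨K.mul_mem ha1 hb1, fun w hw => ?_⟩
        have h1 := ha2 (b w) (hK.gen.inv_of inv_WW hb1 hw)
        have h2 := hb2 w hw
        have := (CC K).add_mem h1 h2
        rwa [sub_add_sub_cancel] at this
      one_mem' := ⟨K.one_mem, fun w _ => by
        have : (1 : V ≃ₗ[ZMod p] V) w - w = 0 := sub_self w
        rw [this]; exact (CC K).zero_mem⟩
      inv_mem' := by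
        rintro a ⟨ha1, ha2⟩
        refine ⟨K.inv_mem ha1, fun w hw => ?_⟩
        have h1 := ha2 (a⁻¹ w) (hK.gen.inv_of inv_WW (K.inv_mem ha1) hw)
        have e1 : a (a⁻¹ w) = w := a.apply_symm_apply w
        rw [e1] at h1
        have := (CC K).neg_mem h1
        rwa [neg_sub] at this }
  have hD : D = ⊥ := by
    apply hK.pfree
    · exact fun k hk => hk.1
    · rintro k hk d ⟨hd1, hd2⟩
      refine ⟨K.mul_mem (K.mul_mem hk hd1) (K.inv_mem hk), fun w hw => ?_⟩
      have h1 := hd2 (k⁻¹ w) (hK.gen.inv_of inv_WW (K.inv_mem hk) hw)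
      have h2 := hK.gen.inv_of inv_CC hk h1
      rw [map_sub] at h2
      have e1 : k (k⁻¹ w) = w := k.apply_symm_apply w
      rw [e1] at h2
      exact h2
    · rintro d ⟨hd1, hd2⟩
      apply pow_p_eq_one hp
      intro x
      have h1 : d x - x ∈ WW K := hK.gen.sub_W hd1 x
      have h2 := hK.gen.fix_C hd1 (hd2 _ h1)
      rw [map_sub, map_sub, map_sub] at h2
      have h4 : d (d (d x)) - d (d x) - (d (d x) - d x) - (d (d x) - d x - (d x - x)) = 0 := by
        rw [h2, sub_self]
      have h5 : d (d (d x)) - (3 : ℕ) • d (d x) + (3 : ℕ) • d x - x =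
        d (d (d x)) - d (d x) - (d (d x) - d x) - (d (d x) - d x - (d x - x)) := by abel
      rw [h5, h4]
  have : k ∈ D := ⟨hk, h⟩
  rw [hD, Subgroup.mem_bot] at this
  exact this

end Cfsg.Agent.H93.McL
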