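import Mathlib
import Cfsg.Agent.H93.McL.Conn2

/-!
The action of a connected transvection group on its commutator space modulo fixed points.
-/

set_option autoImplicit false

namespace Cfsg.Agent.H93.McL

open Module

variable {p : ℕ} [Fact p.Prime] {V : Type*} [AddCommGroup V] [Module (ZMod p) V]
variable {K : Subgroup (V ≃ₗ[ZMod p] V)}
variable {E : Type*} [AddCommGroup E] [Module (ZMod p) E]

/-- factoring a linear map through a surjective one -/
theorem factor {F W E X : Type*} [Field F] [AddCommGroup W] [Module F W] [AddCommGroup E] [Module F E]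
    [AddCommGroup X] [Module F X] (π : W →ₗ[F] E) (hs : Function.Surjective π) (f : W →ₗ[F] X)
    (h : ∀ w, π w = 0 → f w = 0) : ∃ g : E →ₗ[F] X, ∀ w, g (π w) = f w := by
  have h1 : LinearMap.ker π ≤ LinearMap.ker f := fun w hw => h w hw
  refine ⟨((LinearMap.ker π).liftQ f h1) ∘ₗ ((π.quotKerEquivOfSurjective hs).symm : E →ₗ[F] W ⧸ LinearMap.ker π), fun w => ?_⟩
  have h2 : (π.quotKerEquivOfSurjective hs).symm (π w) = (LinearMap.ker π).mkQ w := by
    rw [LinearEquiv.symm_apply_eq]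
    rfl
  rw [LinearMap.comp_apply]
  show ((LinearMap.ker π).liftQ f h1) ((π.quotKerEquivOfSurjective hs).symm (π w)) = f w
  rw [h2]
  rfl

/-- the set-up -/
structure Bar (K : Subgroup (V ≃ₗ[ZMod p] V)) (π : WW K →ₗ[ZMod p] E) (θ : K →* (E ≃ₗ[ZMod p] E)) : Prop where
  conn : Conn K
  surj : Function.Surjective π
  ker : ∀ w : WW K, π w = 0 ↔ (w : V) ∈ CC K
  act : ∀ (k : K) (w w' : WW K), (k : V ≃ₗ[ZMod p] V) w = w' → θ k (π w) = π w'

theorem exists_theta (hK : Conn K) (π : WW K →ₗ[ZMod p] E) (hs : Function.Surjective π)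
    (hk : ∀ w : WW K, π w = 0 ↔ (w : V) ∈ CC K) : ∃ θ : K →* (E ≃ₗ[ZMod p] E), Bar K π θ := by
  classical
  have hmem : ∀ (k : K) (w : WW K), (k : V ≃ₗ[ZMod p] V) w ∈ WW K := fun k w => hK.gen.inv_of inv_WW k.2 w.2
  have h1 : ∀ k : K, ∃ T : E →ₗ[ZMod p] E, ∀ w : WW K, T (π w) = π ⟨(k : V ≃ₗ[ZMod p] V) w, hmem k w⟩ := by
    intro k
    refine factor π hs (π ∘ₗ ((k : V ≃ₗ[ZMod p] V) : V →ₗ[ZMod p] V).restrict (fun w hw => hmem k ⟨w, hw⟩)) ?_
    intro w hw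
    rw [LinearMap.comp_apply]
    have : (((k : V ≃ₗ[ZMod p] V) : V →ₗ[ZMod p] V).restrict (fun w hw => hmem k ⟨w, hw⟩) : WW K →ₗ[ZMod p] WW K) w
      = w + ⟨(k : V ≃ₗ[ZMod p] V) w - w, (WW K).sub_mem (hmem k w) w.2⟩ := by
      apply Subtype.ext
      show (k : V ≃ₗ[ZMod p] V) w = w + ((k : V ≃ₗ[ZMod p] V) w - w)
      abel
    rw [this, map_add, hw, zero_add, hk]
    show (k : V ≃ₗ[ZMod p] V) w - w ∈ CC K
    have h2 := (hk w).1 hw
    rw [hK.gen.fix_C k.2 h2, sub_self]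
    exact (CC K).zero_mem
  choose T hT using h1
  have hTmul : ∀ a b : K, T (a * b) = T a ∘ₗ T b := by
    intro a b
    ext e
    obtain ⟨w, rfl⟩ := hs e
    rw [LinearMap.comp_apply, hT, hT, hT]
    rfl
  have hTone : T 1 = LinearMap.id := by
    ext e
    obtain ⟨w, rfl⟩ := hs e
    rw [hT]
    rfl
  refine ⟨MonoidHom.mk' (fun k => LinearEquiv.ofLinear (T k) (T k⁻¹) (by rw [← hTmul, mul_inv_cancel, hTone])
    (by rw [← hTmul, inv_mul_cancel, hTone])) ?_, hK, hs, hk, ?_⟩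
  · intro a b
    ext e
    show T (a * b) e = T a (T b e)
    rw [hTmul]; rfl
  · intro k w w' h
    show T k (π w) = π w'
    rw [hT]
    congr 1
    exact Subtype.ext h

section
variable {π : WW K →ₗ[ZMod p] E} {θ : K →* (E ≃ₗ[ZMod p] E)}

theorem Bar.dual (hB : Bar K π θ) {v : V} {f : Dual (ZMod p) V} (hv : v ≠ 0) (h : R K v f) :
    ∃ g : Dual (ZMod p) E, ∀ w : WW K, g (π w) = f w :=
  factor π hB.surj (f ∘ₗ (WW K).subtype) (fun w hw => (hB.ker w).1 hw v f hv h)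

theorem Bar.R_bar (hB : Bar K π θ) {v : WW K} {f : Dual (ZMod p) V} (h : R K v f)
    {g : Dual (ZMod p) E} (hg : ∀ w : WW K, g (π w) = f w) : R θ.range (π v) g := by
  have h0 : g (π v) = 0 := by rw [hg, h.1]
  refine ⟨h0, ⟨LinearEquiv.transvection h.1, h.2⟩, ?_⟩
  ext e
  obtain ⟨w, rfl⟩ := hB.surj e
  rw [hB.act _ w (w + f w • v) (by rw [tv_apply]; rfl), tv_apply, map_add, map_smul, hg]

/-- `θ` of a subgroup contained in `K` -/
def Mbar (θ : K →* (E ≃ₗ[ZMod p] E)) (M : Subgroup (V ≃ₗ[ZMod p] V)) : Subgroup (E ≃ₗ[ZMod p] E) :=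
  (M.subgroupOf K).map θ

theorem Bar.R_Mbar (hB : Bar K π θ) {M : Subgroup (V ≃ₗ[ZMod p] V)} {v : WW K} {f : Dual (ZMod p) V} (h : R K v f)
    (hM : LinearEquiv.transvection h.1 ∈ M)
    {g : Dual (ZMod p) E} (hg : ∀ w : WW K, g (π w) = f w) : R (Mbar θ M) (π v) g := by
  have h0 : g (π v) = 0 := by rw [hg, h.1]
  refine ⟨h0, ⟨LinearEquiv.transvection h.1, h.2⟩, hM, ?_⟩
  ext e
  obtain ⟨w, rfl⟩ := hB.surj e
  rw [hB.act _ w (w + f w • v) (by rw [tv_apply]; rfl), tv_apply, map_add, map_smul, hg]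

theorem Bar.gen (hB : Bar K π θ) : Gen θ.range := by
  intro K' hK'
  have h1 : K ≤ (K'.comap θ).map K.subtype := by
    apply hB.conn.gen
    intro v f h
    refine ⟨h.1, ⟨⟨LinearEquiv.transvection h.1, h.2⟩, ?_, rfl⟩⟩
    show θ _ ∈ K'
    by_cases hv : v = 0
    · have : (⟨LinearEquiv.transvection h.1, h.2⟩ : K) = 1 := by
        apply Subtype.ext
        ext x
        show LinearEquiv.transvection h.1 x = x
        rw [tv_apply, hv, smul_zero, add_zero]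
      rw [this, map_one]
      exact K'.one_mem
    by_cases hf : f = 0
    · have : (⟨LinearEquiv.transvection h.1, h.2⟩ : K) = 1 := by
        apply Subtype.ext
        ext x
        show LinearEquiv.transvection h.1 x = x
        rw [tv_apply, hf, LinearMap.zero_apply, zero_smul, add_zero]
      rw [this, map_one]
      exact K'.one_mem
    have hvW : v ∈ WW K := mem_WW hf h
    obtain ⟨g, hg⟩ := hB.dual hv h
    obtain ⟨h0, hm⟩ := hK' _ _ (hB.R_bar (v := ⟨v, hvW⟩) h hg)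
    have e1 : θ ⟨LinearEquiv.transvection h.1, h.2⟩ = LinearEquiv.transvection h0 := by
      ext e
      obtain ⟨w, rfl⟩ := hB.surj e
      rw [hB.act _ w (w + f w • ⟨v, hvW⟩) (by rw [tv_apply]; rfl), tv_apply, map_add, map_smul, hg]
    rw [e1]; exact hm
  rintro _ ⟨k, rfl⟩
  obtain ⟨k', hk', hkk⟩ := h1 k.2
  have : k' = k := Subtype.ext hkk
  rw [← this]; exact hk'

theorem Bar.irr (hp : Odd p) (hB : Bar K π θ) : Irr θ.range := by
  intro U hU
  let U' : Submodule (ZMod p) V := (U.comap π).map (WW K).subtype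
  have hU' : Inv K U' := by
    rintro v f h _ ⟨w, hw, rfl⟩
    by_cases hv : v = 0
    · rw [hv, smul_zero, add_zero]; exact ⟨w, hw, rfl⟩
    by_cases hf : f = 0
    · rw [hf, LinearMap.zero_apply, zero_smul, add_zero]; exact ⟨w, hw, rfl⟩
    have hvW : v ∈ WW K := mem_WW hf h
    obtain ⟨g, hg⟩ := hB.dual hv h
    have h1 := hU _ _ (hB.R_bar (v := ⟨v, hvW⟩) h hg) (π w) hw
    rw [hg] at h1
    refine ⟨w + f w • ⟨v, hvW⟩, ?_, rfl⟩
    show π _ ∈ U
    rw [map_add, map_smul]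
    exact h1
  rcases hB.conn.s1 hp hU' with h | h
  · right
    rw [eq_top_iff]
    intro e _
    obtain ⟨w, rfl⟩ := hB.surj e
    obtain ⟨w', hw', hww⟩ := h w.2
    have : w' = w := Subtype.ext hww
    rw [← this]; exact hw'
  · left
    rw [eq_bot_iff]
    intro e he
    obtain ⟨w, rfl⟩ := hB.surj e
    rw [Submodule.mem_bot, hB.ker]
    exact h ⟨w, he, rfl⟩

theorem Bar.inj (hp : Odd p) (hB : Bar K π θ) : Function.Injective θ := by
  rw [injective_iff_map_eq_one]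
  intro k hk
  apply Subtype.ext
  apply hB.conn.faith hp k.2
  intro w hw
  have hmem : (k : V ≃ₗ[ZMod p] V) w ∈ WW K := hB.conn.gen.inv_of inv_WW k.2 hw
  have h1 := hB.act k ⟨w, hw⟩ ⟨_, hmem⟩ rfl
  rw [hk] at h1
  have h2 : π (⟨_, hmem⟩ - ⟨w, hw⟩) = 0 := by
    rw [map_sub, ← h1]; exact sub_self _
  exact (hB.ker _).1 h2

theorem Bar.pt (hp : Odd p) (hB : Bar K π θ) {v : WW K} {f : Dual (ZMod p) V} (h : Pt K ((v : V), f))
    {g : Dual (ZMod p) E} (hg : ∀ w : WW K, g (π w) = f w) : Pt θ.range (π v, g) := by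
  refine ⟨?_, ?_, hB.R_bar h.2.2 hg⟩
  · intro h1
    exact hB.conn.ctr_not_mem hp h.1 h.2.1 h.2.2 ((hB.ker v).1 h1)
  · intro h1
    obtain ⟨w, hw, hne⟩ := hB.conn.axis_ne hp h.1 h.2.1 h.2.2
    apply hne
    have h2 := hg ⟨w, hw⟩
    have h1' : g = 0 := h1
    rw [h1'] at h2
    exact h2.symm

variable [FiniteDimensional (ZMod p) E]

/-- every transvection of the image comes from one in `K` -/
theorem Bar.lift (hp : Odd p) (hB : Bar K π θ) {r : E × Dual (ZMod p) E} (hr : Pt θ.range r) :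
    ∃ (v : WW K) (f : Dual (ZMod p) V), Pt K ((v : V), f) ∧ π v = r.1 ∧ ∀ w : WW K, r.2 (π w) = f w := by
  obtain ⟨⟨v₀, f₀⟩, hq⟩ := hB.conn.ne
  have hvW : v₀ ∈ WW K := mem_WW hq.2.1 hq.2.2
  obtain ⟨g, hg⟩ := hB.dual hq.1 hq.2.2
  have hpt := hB.pt hp (v := ⟨v₀, hvW⟩) hq hg
  obtain ⟨_, ⟨k, rfl⟩, h1, c, hc, h2⟩ := pt_trans (hFp hp) (scal _) (hB.irr hp) hpt hr
  have hmem : (k : V ≃ₗ[ZMod p] V) v₀ ∈ WW K := hB.conn.gen.inv_of inv_WW k.2 hvW
  refine ⟨⟨_, hmem⟩, c⁻¹ • (f₀ ∘ₗ ((k : V ≃ₗ[ZMod p] V).symm : V →ₗ[ZMod p] V)), ⟨?_, ?_, ?_⟩, ?_, ?_⟩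
  · intro h
    apply hq.1
    apply (k : V ≃ₗ[ZMod p] V).injective
    rw [map_zero]; exact h
  · intro h
    have h3 : f₀ ∘ₗ ((k : V ≃ₗ[ZMod p] V).symm : V →ₗ[ZMod p] V) = 0 :=
      (smul_eq_zero.1 h).resolve_left (inv_ne_zero hc)
    apply hq.2.1
    ext x
    have := LinearMap.congr_fun h3 ((k : V ≃ₗ[ZMod p] V) x)
    rw [LinearMap.comp_apply] at this
    simpa using this
  · exact scal K _ _ _ (R_conj k.2 hq.2.2)
  · rw [← h1]
    exact (hB.act k ⟨v₀, hvW⟩ ⟨_, hmem⟩ rfl).symm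
  · intro w
    have hmem' : (k : V ≃ₗ[ZMod p] V).symm w ∈ WW K := hB.conn.gen.inv_of inv_WW (K.inv_mem k.2) w.2
    have h3 := LinearMap.congr_fun h2 (π w)
    have h4 : ((θ k).symm : E →ₗ[ZMod p] E) (π w) = π ⟨_, hmem'⟩ := by
      show (θ k).symm (π w) = _
      rw [LinearEquiv.symm_apply_eq]
      exact (hB.act k ⟨_, hmem'⟩ w ((k : V ≃ₗ[ZMod p] V).apply_symm_apply w)).symm
    rw [LinearMap.comp_apply, h4] at h3
    have h5 : g (π ⟨_, hmem'⟩) = f₀ ((k : V ≃ₗ[ZMod p] V).symm w) := hg _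
    have h3' : g (π ⟨_, hmem'⟩) = (c • r.2) (π w) := h3
    rw [h5, LinearMap.smul_apply, smul_eq_mul] at h3'
    rw [LinearMap.smul_apply, LinearMap.comp_apply, smul_eq_mul]
    show _ = c⁻¹ * f₀ ((k : V ≃ₗ[ZMod p] V).symm w)
    rw [h3', ← mul_assoc, inv_mul_cancel₀ hc, one_mul]

end

end Cfsg.Agent.H93.McL
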