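import Mathlib
import Cfsg.Agent.H93.McL.Quo

/-!
A connected transvection group splits off its fixed space.
-/

set_option autoImplicit false

namespace Cfsg.Agent.H93.McL

open Module

section
variable {F V : Type*} [Field F] [AddCommGroup V] [Module F V]

/-- elements with `k x - x ∈ U` -/
def SU (U : Submodule F V) : Subgroup (V ≃ₗ[F] V) where
  carrier := {k | ∀ x, k x - x ∈ U}
  mul_mem' := by
    intro a b ha hb x
    have h1 := ha (b x)
    have h2 := hb x
    have := U.add_mem h1 h2
    rwa [sub_add_sub_cancel] at this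
  one_mem' := fun x => by
    have : (1 : V ≃ₗ[F] V) x - x = 0 := sub_self x
    rw [this]; exact U.zero_mem
  inv_mem' := by
    intro a ha x
    have h1 := ha (a⁻¹ x)
    have e1 : a (a⁻¹ x) = x := a.apply_symm_apply x
    rw [e1] at h1
    have := U.neg_mem h1
    rwa [neg_sub] at this

/-- elements fixing `x` -/
def FU (x : V) : Subgroup (V ≃ₗ[F] V) where
  carrier := {k | k x = x}
  mul_mem' := by
    intro a b ha hb
    show a (b x) = x
    rw [hb, ha]
  one_mem' := rfl
  inv_mem' := by
    intro a ha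
    show a.symm x = x
    rw [LinearEquiv.symm_apply_eq]
    exact Eq.symm ha

end

variable {p : ℕ} [Fact p.Prime] {V : Type*} [AddCommGroup V] [Module (ZMod p) V]
variable {K : Subgroup (V ≃ₗ[ZMod p] V)}

theorem Conn.isCompl [FiniteDimensional (ZMod p) V] (hp : Odd p) (hK : Conn K) : IsCompl (WW K) (CC K) := by
  classical
  let π := ((CC K).comap (WW K).subtype).mkQ
  have hs : Function.Surjective π := Submodule.mkQ_surjective _
  have hk : ∀ w : WW K, π w = 0 ↔ (w : V) ∈ CC K := by
    intro w
    show (Submodule.Quotient.mk w : WW K ⧸ (CC K).comap (WW K).subtype) = 0 ↔ _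
    rw [Submodule.Quotient.mk_eq_zero]
    rfl
  obtain ⟨θ, hB⟩ := exists_theta hK π hs hk
  set m := finrank (ZMod p) (WW K ⧸ (CC K).comap (WW K).subtype) with hm
  obtain ⟨⟨v₀, f₀⟩, hq⟩ := hK.ne
  have hvW : v₀ ∈ WW K := mem_WW hq.2.1 hq.2.2
  obtain ⟨g, hg⟩ := hB.dual hq.1 hq.2.2
  have hpt := hB.pt hp (v := ⟨v₀, hvW⟩) hq hg
  obtain ⟨q, hq1, hq2⟩ := pick (hFp hp) (scal _) (hB.irr hp) hpt
  have hlift := fun j => hB.lift hp (hq1 j)
  choose v f h1 h2 h3 using hlift
  let M : Subgroup (V ≃ₗ[ZMod p] V) := Subgroup.closure (Set.range (fun j => LinearEquiv.transvection (h1 j).2.2.1))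
  have hMK : ∀ j, LinearEquiv.transvection (h1 j).2.2.1 ∈ M := fun j => Subgroup.subset_closure ⟨j, rfl⟩
  have hMb : Mbar θ M ≤ θ.range := by
    rintro _ ⟨k, _, rfl⟩
    exact ⟨k, rfl⟩
  have h4 := hq2 (Mbar θ M) (scal _) hMb (by
    intro j
    rw [← h2 j]
    exact hB.R_Mbar (h1 j).2.2 (hMK j) (h3 j))
  have h5 : θ.range ≤ Mbar θ M := hB.gen _ h4
  have hKM : K ≤ M := by
    intro k hk
    obtain ⟨k', hk', hkk⟩ := h5 ⟨⟨k, hk⟩, rfl⟩
    have h6 := hB.inj hp hkk
    have : k = k' := congrArg Subtype.val h6.symm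
    rw [this]
    exact hk'
  -- dimension of `WW K`
  have hW : finrank (ZMod p) (WW K) ≤ m := by
    have h6 : WW K ≤ Submodule.span (ZMod p) (Set.range (fun j => (v j : V))) := by
      apply Submodule.span_le.2
      rintro w ⟨e, he, hR⟩
      have h7 : M ≤ SU (Submodule.span (ZMod p) (Set.range (fun j => (v j : V)))) := by
        apply (Subgroup.closure_le _).2
        rintro _ ⟨j, rfl⟩ x
        show LinearEquiv.transvection _ x - x ∈ _
        rw [tv_apply, add_sub_cancel_left]
        exact Submodule.smul_mem _ _ (Submodule.subset_span ⟨j, rfl⟩)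
      obtain ⟨x, hx⟩ := exists_ne_zero_apply he
      have h8 : LinearEquiv.transvection hR.1 x - x ∈ Submodule.span (ZMod p) (Set.range (fun j => (v j : V))) :=
        h7 (hKM hR.2) x
      rw [tv_apply, add_sub_cancel_left] at h8
      exact (Submodule.smul_mem_iff _ hx).1 h8
    refine (Submodule.finrank_mono h6).trans ?_
    refine (finrank_range_le_card _).trans ?_
    rw [Fintype.card_fin]
  have hC : finrank (ZMod p) V ≤ finrank (ZMod p) (CC K) + m := by
    let L : V →ₗ[ZMod p] (Fin m → ZMod p) := LinearMap.pi f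
    have h6 : LinearMap.ker L ≤ CC K := by
      intro x hx w e hw hR
      have h7 : M ≤ FU x := by
        apply (Subgroup.closure_le _).2
        rintro _ ⟨j, rfl⟩
        show LinearEquiv.transvection _ x = x
        have h8 : f j x = 0 := congrFun (LinearMap.mem_ker.1 hx) j
        rw [tv_apply, h8, zero_smul, add_zero]
      have h8 : LinearEquiv.transvection hR.1 x = x := h7 (hKM hR.2)
      rw [tv_apply, add_eq_left] at h8
      exact (smul_eq_zero.1 h8).resolve_right hw
    have h7 := LinearMap.finrank_range_add_finrank_ker L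
    have h8 := Submodule.finrank_mono h6
    have h9 : finrank (ZMod p) (LinearMap.range L) ≤ m := by
      refine (Submodule.finrank_le _).trans ?_
      rw [finrank_fin_fun]
    omega
  -- kernel
  have hker := LinearMap.finrank_range_add_finrank_ker π
  rw [LinearMap.range_eq_top.2 hs, finrank_top] at hker
  have hker0 : finrank (ZMod p) (LinearMap.ker π) = 0 := by omega
  have hker1 : LinearMap.ker π = ⊥ := Submodule.finrank_eq_zero.1 hker0
  have hdis : Disjoint (WW K) (CC K) := by
    rw [Submodule.disjoint_def]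
    intro x hx hx'
    have h6 : (⟨x, hx⟩ : WW K) ∈ LinearMap.ker π := (hk _).2 hx'
    rw [hker1, Submodule.mem_bot] at h6
    exact congrArg Subtype.val h6
  refine ⟨hdis, ?_⟩
  rw [codisjoint_iff]
  have h6 := Submodule.finrank_sup_add_finrank_inf_eq (WW K) (CC K)
  rw [hdis.eq_bot, finrank_bot, add_zero] at h6
  apply Submodule.eq_top_of_finrank_eq
  have h7 := Submodule.finrank_le (WW K ⊔ CC K)
  omega

end Cfsg.Agent.H93.McL
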