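import Mathlib
import Cfsg.Agent.H93.McL.Split
import Cfsg.Agent.H93.McL.Gen

/-!
The action of a connected transvection group on its commutator space.
-/

set_option autoImplicit false

namespace Cfsg.Agent.H93.McL

open Module

section
variable {F V : Type*} [Field F] [AddCommGroup V] [Module F V]

def IsoGrp (B : LinearMap.BilinForm F V) : Subgroup (V ≃ₗ[F] V) where
  carrier := {f | ∀ x y, B (f x) (f y) = B x y}
  mul_mem' := by
    intro a b ha hb x y
    show B (a (b x)) (a (b y)) = B x y
    rw [ha, hb]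
  one_mem' := fun x y => rfl
  inv_mem' := by
    intro a ha x y
    have h1 := ha (a⁻¹ x) (a⁻¹ y)
    have e1 : a (a⁻¹ x) = x := a.apply_symm_apply x
    have e2 : a (a⁻¹ y) = y := a.apply_symm_apply y
    rw [e1, e2] at h1
    exact h1.symm

theorem isoGrp_tv {B : LinearMap.BilinForm F V} (hB : B.IsAlt) (v : V) (c : F) (h : (c • B v) v = 0) :
    LinearEquiv.transvection h ∈ IsoGrp B := by
  have hneg : ∀ x y, B x y = - B y x := fun x y => by rw [hB.neg_eq y x |>.symm]
  have hself : ∀ x, B x x = 0 := fun x => hB x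
  intro x y
  rw [tv_apply, tv_apply, LinearMap.smul_apply, LinearMap.smul_apply, smul_eq_mul, smul_eq_mul]
  rw [map_add, map_add, map_smul, map_smul, LinearMap.add_apply, LinearMap.add_apply, LinearMap.smul_apply,
    LinearMap.smul_apply, hself, smul_eq_mul, smul_eq_mul, hneg x v]
  ring

end

variable {p : ℕ} [Fact p.Prime] {V : Type*} [AddCommGroup V] [Module (ZMod p) V]
variable {K : Subgroup (V ≃ₗ[ZMod p] V)}

theorem Conn.rho [FiniteDimensional (ZMod p) V] (hp : Odd p) (hK : Conn K) :
    ∃ ρ : K →* (WW K ≃ₗ[ZMod p] WW K), (∀ (k : K) (w : WW K), ((ρ k w : WW K) : V) = (k : V ≃ₗ[ZMod p] V) (w : V)) ∧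
      (((ρ.range : Set (WW K ≃ₗ[ZMod p] WW K)) = {f : WW K ≃ₗ[ZMod p] WW K | LinearMap.det (f : WW K →ₗ[ZMod p] WW K) = 1}) ∨
        ∃ B : LinearMap.BilinForm (ZMod p) (WW K), B.IsAlt ∧ B.Nondegenerate ∧
          ((ρ.range : Set (WW K ≃ₗ[ZMod p] WW K)) = {f : WW K ≃ₗ[ZMod p] WW K | ∀ x y, B (f x) (f y) = B x y})) := by
  have hc := hK.isCompl hp
  obtain ⟨ρ, hB⟩ := exists_theta hK (LinearMap.id : WW K →ₗ[ZMod p] WW K) Function.surjective_id (by
    intro w
    rw [LinearMap.id_apply]
    constructor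
    · intro h; rw [h]; exact (CC K).zero_mem
    · intro h
      have := Submodule.disjoint_def.1 hc.disjoint w w.2 h
      exact Subtype.ext this)
  refine ⟨ρ, ?_, ?_⟩
  · intro k w
    have h1 := hB.act k w ⟨_, hK.gen.inv_of inv_WW k.2 w.2⟩ rfl
    rw [LinearMap.id_apply, LinearMap.id_apply] at h1
    rw [h1]
  · rcases dichotomy (hFp hp) (scal _) (hB.irr hp) with h | ⟨B, hBa, hBn, h⟩
    · left
      apply Set.Subset.antisymm
      · have h1 : ρ.range ≤ (LinearEquiv.det : (WW K ≃ₗ[ZMod p] WW K) →* (ZMod p)ˣ).ker := by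
          apply hB.gen
          rintro v f ⟨h0, _⟩
          refine ⟨h0, ?_⟩
          rw [MonoidHom.mem_ker]
          exact LinearEquiv.transvection.det_eq_one h0
        intro f hf
        have h2 := h1 hf
        rw [MonoidHom.mem_ker] at h2
        show LinearMap.det (f : WW K →ₗ[ZMod p] WW K) = 1
        rw [← LinearEquiv.coe_det, h2, Units.val_one]
      · intro f hf
        exact det_one_mem h f hf
    · right
      refine ⟨B, hBa, hBn, ?_⟩
      apply Set.Subset.antisymm
      · have h1 : ρ.range ≤ IsoGrp B := by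
          apply hB.gen
          intro v f hR
          by_cases hv : v = 0
          · rw [hv]; exact R_zero_left f
          · obtain ⟨c, rfl⟩ := (h v f hv).1 hR
            exact ⟨hR.1, isoGrp_tv hBa v c hR.1⟩
        exact h1
      · intro f hf
        refine iso_mem (H := ρ.range) hBa hBn ?_ f hf
        intro v c
        by_cases hv : v = 0
        · rw [hv]; exact R_zero_left _
        · exact (h v _ hv).2 ⟨c, rfl⟩

end Cfsg.Agent.H93.McL
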