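import Mathlib
import Cfsg.Agent.H93.McL.Rho

/-!
The components of a transvection group.
-/

set_option autoImplicit false

namespace Cfsg.Agent.H93.McL

open Module

variable {p : ℕ} [Fact p.Prime] {V : Type*} [AddCommGroup V] [Module (ZMod p) V]

/-- no normal subgroup of exponent `p` -/
def PFree (H : Subgroup (V ≃ₗ[ZMod p] V)) : Prop :=
  ∀ D : Subgroup (V ≃ₗ[ZMod p] V), D ≤ H → (∀ k ∈ H, ∀ d ∈ D, k * d * k⁻¹ ∈ D) → (∀ d ∈ D, d ^ p = 1) → D = ⊥

variable (H : Subgroup (V ≃ₗ[ZMod p] V))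

/-- the transvections of `H` -/
abbrev QQ : Type _ := {q : V × Dual (ZMod p) V // Pt H q}

variable {H}

def QQ.tv (q : QQ H) : V ≃ₗ[ZMod p] V := LinearEquiv.transvection q.2.2.2.1

theorem QQ.tv_mem (q : QQ H) : q.tv ∈ H := q.2.2.2.2

theorem QQ.tv_apply' (q : QQ H) (x : V) : q.tv x = x + q.1.2 x • q.1.1 := rfl

theorem QQ.comm {q r : QQ H} (h : ¬ Adj q.1 r.1) : q.tv * r.tv = r.tv * q.tv := by
  unfold Adj at h
  push Not at h
  ext x
  rw [LinearEquiv.mul_apply, LinearEquiv.mul_apply, QQ.tv_apply', QQ.tv_apply', QQ.tv_apply', QQ.tv_apply', map_add, map_add,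
    map_smul, map_smul, h.1, h.2, smul_zero, smul_zero, add_zero, add_zero]
  abel

theorem QQ.tv_pow (hp : Odd p) (q : QQ H) : q.tv ^ p = 1 := by
  apply pow_p_eq_one hp
  intro x
  have h0 : q.1.2 q.1.1 = 0 := q.2.2.2.1
  simp only [QQ.tv_apply', map_add, map_smul, h0, zero_smul, smul_zero, add_zero, smul_eq_mul, mul_zero]
  abel

theorem QQ.tv_ne (q : QQ H) : q.tv ≠ 1 := by
  intro h
  obtain ⟨w, hw⟩ := exists_ne_zero_apply q.2.2.1
  have h4 := LinearEquiv.congr_fun h w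
  rw [QQ.tv_apply'] at h4
  have h5 : q.1.2 w • q.1.1 = 0 := by
    have : (1 : V ≃ₗ[ZMod p] V) w = w := rfl
    rw [this] at h4
    exact add_eq_left.1 h4
  rcases smul_eq_zero.1 h5 with h6 | h6
  · exact hw h6
  · exact q.2.1 h6

theorem QQ.not_central (hp : Odd p) (hpf : PFree H) (q : QQ H) : ¬ ∀ k ∈ H, k * q.tv = q.tv * k := by
  intro hcon
  have h1 : Subgroup.zpowers q.tv = ⊥ := by
    apply hpf
    · rw [Subgroup.zpowers_le]; exact q.tv_mem
    · rintro k hk d ⟨n, rfl⟩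
      have h2 : Commute k q.tv := hcon k hk
      have h3 : k * q.tv ^ n = q.tv ^ n * k := (h2.zpow_right n)
      show k * q.tv ^ n * k⁻¹ ∈ _
      rw [h3, mul_inv_cancel_right]
      exact ⟨n, rfl⟩
    · rintro d ⟨n, rfl⟩
      show (q.tv ^ n) ^ p = 1
      rw [← zpow_natCast, ← zpow_mul, mul_comm, zpow_mul, zpow_natCast, q.tv_pow hp, one_zpow]
  rw [Subgroup.zpowers_eq_bot] at h1
  exact q.tv_ne h1

/-- the connectedness relation -/
def rel (H : Subgroup (V ≃ₗ[ZMod p] V)) : Setoid (QQ H) := Relation.EqvGen.setoid (fun q r => Adj q.1 r.1)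

/-- the components -/
def Cmp (H : Subgroup (V ≃ₗ[ZMod p] V)) : Type _ := Quotient (rel H)

def cl (q : QQ H) : Cmp H := Quotient.mk (rel H) q

theorem cl_eq_of_adj {q r : QQ H} (h : Adj q.1 r.1) : cl q = cl r := Quotient.sound (Relation.EqvGen.rel q r h)

theorem cl_surj (i : Cmp H) : ∃ q : QQ H, cl q = i := Quotient.exists_rep i

/-- the component groups -/
def KK (i : Cmp H) : Subgroup (V ≃ₗ[ZMod p] V) := Subgroup.closure {t | ∃ q : QQ H, cl q = i ∧ t = q.tv}

theorem tv_mem_KK (q : QQ H) : q.tv ∈ KK (cl q) := Subgroup.subset_closure ⟨q, rfl, rfl⟩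

theorem KK_le (i : Cmp H) : KK i ≤ H := by
  apply (Subgroup.closure_le _).2
  rintro _ ⟨q, _, rfl⟩
  exact q.tv_mem

theorem KK_comm {i j : Cmp H} (hij : i ≠ j) : ∀ a ∈ KK i, ∀ b ∈ KK j, a * b = b * a := by
  intro a ha b hb
  have h1 : ∀ r : QQ H, cl r = j → a * r.tv = r.tv * a := by
    intro r hr
    have h2 : KK i ≤ Subgroup.centralizer {r.tv} := by
      apply (Subgroup.closure_le _).2
      rintro _ ⟨q, hq, rfl⟩
      show q.tv ∈ Subgroup.centralizer _
      rw [Subgroup.mem_centralizer_iff]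
      rintro _ rfl
      apply QQ.comm
      intro h
      apply hij
      rw [← hq, ← hr]
      exact (cl_eq_of_adj h).symm
    have h3 := h2 ha
    rw [Subgroup.mem_centralizer_iff] at h3
    exact (h3 _ rfl).symm
  have h2 : KK j ≤ Subgroup.centralizer {a} := by
    apply (Subgroup.closure_le _).2
    rintro _ ⟨r, hr, rfl⟩
    show r.tv ∈ Subgroup.centralizer _
    rw [Subgroup.mem_centralizer_iff]
    rintro _ rfl
    exact h1 r hr
  have h3 := h2 hb
  rw [Subgroup.mem_centralizer_iff] at h3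
  exact h3 _ rfl

theorem QQ.of_R {v : V} {f : Dual (ZMod p) V} (hv : v ≠ 0) (hf : f ≠ 0) (h : R H v f) :
    ∃ q : QQ H, q.1 = (v, f) := ⟨⟨(v, f), hv, hf, h⟩, rfl⟩

theorem le_iSup_KK (hg : Gen H) : H ≤ ⨆ i, KK (H := H) i := by
  apply hg
  intro v f h
  by_cases hv : v = 0
  · rw [hv]; exact R_zero_left f
  by_cases hf : f = 0
  · rw [hf]; exact R_zero_right v
  refine ⟨h.1, ?_⟩
  exact (le_iSup (fun i => KK (H := H) i) (cl ⟨(v, f), hv, hf, h⟩)) (tv_mem_KK ⟨(v, f), hv, hf, h⟩)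

/-- an element commuting with all the components commutes with `H` -/
theorem central_of (hg : Gen H) {x : V ≃ₗ[ZMod p] V} (hx : ∀ i, ∀ k ∈ KK (H := H) i, k * x = x * k) : ∀ k ∈ H, k * x = x * k := by
  have h1 : (⨆ i, KK (H := H) i) ≤ Subgroup.centralizer {x} := by
    apply iSup_le
    intro i k hk
    rw [Subgroup.mem_centralizer_iff]
    rintro _ rfl
    exact (hx i k hk).symm
  intro k hk
  have h2 := h1 (le_iSup_KK hg hk)
  rw [Subgroup.mem_centralizer_iff] at h2
  exact (h2 x rfl).symm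

theorem cl_of_mem (hp : Odd p) (hg : Gen H) (hpf : PFree H) {i : Cmp H} (q : QQ H) (h : q.tv ∈ KK i) : cl q = i := by
  by_contra hne
  apply q.not_central hp hpf
  apply central_of hg
  intro k a ha
  by_cases hk : k = i
  · have hk' : k ≠ cl q := by rw [hk]; exact fun h => hne h.symm
    exact KK_comm hk' a ha _ (tv_mem_KK q)
  · exact KK_comm hk a ha _ h

theorem KK_normal (hg : Gen H) (i : Cmp H) : ∀ h ∈ H, ∀ k ∈ KK i, h * k * h⁻¹ ∈ KK i := by
  have h1 : (⨆ j, KK (H := H) j) ≤ Subgroup.normalizer (KK i : Set (V ≃ₗ[ZMod p] V)) := by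
    apply iSup_le
    intro j
    by_cases hj : j = i
    · rw [hj]; exact Subgroup.le_normalizer
    · intro k hk
      rw [Subgroup.mem_normalizer_iff]
      intro a
      constructor
      · intro ha
        rw [KK_comm hj k hk a ha, mul_inv_cancel_right]; exact ha
      · intro ha
        have h2 := KK_comm hj k hk _ ha
        have h3 : k * (k * a * k⁻¹) = k * a := by rw [h2]; group
        have h4 : k * a * k⁻¹ = a := mul_left_cancel h3
        rwa [h4] at ha
  intro h hh k hk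
  have h2 := h1 (le_iSup_KK hg hh)
  rw [Subgroup.mem_normalizer_iff] at h2
  exact (h2 k).1 hk

theorem KK_conn (hp : Odd p) (hg : Gen H) (hpf : PFree H) (i : Cmp H) : Conn (KK i) where
  gen := by
    intro K' hK'
    apply (Subgroup.closure_le _).2
    rintro _ ⟨q, hq, rfl⟩
    have h1 : R (KK i) q.1.1 q.1.2 := ⟨q.2.2.2.1, by rw [← hq]; exact tv_mem_KK q⟩
    exact (hK' _ _ h1).2
  conn := by
    rintro S ⟨q₀, hq₀S, hq₀⟩ hS q hq
    let lift : ∀ q, Pt (KK i) q → QQ H := fun q hq => ⟨q, hq.1, hq.2.1, hq.2.2.1, KK_le i hq.2.2.2⟩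
    have hcl : ∀ q (hq : Pt (KK i) q), cl (lift q hq) = i := fun q hq => cl_of_mem hp hg hpf _ hq.2.2.2
    have hpt : ∀ q : QQ H, cl q = i → Pt (KK i) q.1 := fun q hq =>
      ⟨q.2.1, q.2.2.1, q.2.2.2.1, by rw [← hq]; exact tv_mem_KK q⟩
    have h1 : Relation.EqvGen (fun q r : QQ H => Adj q.1 r.1) (lift q₀ hq₀) (lift q hq) :=
      Quotient.exact ((hcl q₀ hq₀).trans (hcl q hq).symm)
    have h2 : ∀ a b : QQ H, Relation.EqvGen (fun q r : QQ H => Adj q.1 r.1) a b → ((cl a = i ∧ a.1 ∈ S) ↔ (cl b = i ∧ b.1 ∈ S)) := by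
      intro a b hab
      induction hab with
      | rel a b h =>
        constructor
        · rintro ⟨h3, h4⟩
          have h5 : cl b = i := by rw [← cl_eq_of_adj h]; exact h3
          exact ⟨h5, hS a.1 b.1 (hpt a h3) (hpt b h5) h h4⟩
        · rintro ⟨h3, h4⟩
          have h5 : cl a = i := by rw [cl_eq_of_adj h]; exact h3
          exact ⟨h5, hS b.1 a.1 (hpt b h3) (hpt a h5) h.symm h4⟩
      | refl a => exact Iff.rfl
      | symm a b _ ih => exact ih.symm
      | trans a b c _ _ ih1 ih2 => exact ih1.trans ih2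
    exact ((h2 _ _ h1).1 ⟨hcl q₀ hq₀, hq₀S⟩).2
  ne := by
    obtain ⟨q, hq⟩ := cl_surj i
    exact ⟨q.1, q.2.1, q.2.2.1, q.2.2.2.1, by rw [← hq]; exact tv_mem_KK q⟩
  pfree := by
    intro D hD hn hpD
    apply hpf D (hD.trans (KK_le i)) _ hpD
    have h1 : (⨆ j, KK (H := H) j) ≤ Subgroup.normalizer (D : Set (V ≃ₗ[ZMod p] V)) := by
      apply iSup_le
      intro j k hk
      rw [Subgroup.mem_normalizer_iff]
      by_cases hj : j = i
      · subst hj
        intro a
        constructor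
        · exact fun ha => hn k hk a ha
        · intro ha
          have := hn k⁻¹ ((KK j).inv_mem hk) _ ha
          have h2 : k⁻¹ * (k * a * k⁻¹) * k⁻¹⁻¹ = a := by group
          rwa [h2] at this
      · intro a
        constructor
        · intro ha
          rw [KK_comm hj k hk a (hD ha), mul_inv_cancel_right]; exact ha
        · intro ha
          have h2 := KK_comm hj k hk _ (hD ha)
          have h3 : k * (k * a * k⁻¹) = k * a := by rw [h2]; group
          have h4 : k * a * k⁻¹ = a := mul_left_cancel h3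
          rwa [h4] at ha
    intro k hk d hd
    have h2 := h1 (le_iSup_KK hg hk)
    rw [Subgroup.mem_normalizer_iff] at h2
    exact (h2 d).1 hd

theorem R_QQ {i : Cmp H} (hp : Odd p) (hg : Gen H) (hpf : PFree H) {v : V} {f : Dual (ZMod p) V} (hv : v ≠ 0) (hf : f ≠ 0)
    (h : R (KK i) v f) : ∃ q : QQ H, cl q = i ∧ q.1 = (v, f) :=
  ⟨⟨(v, f), hv, hf, h.1, KK_le i h.2⟩, cl_of_mem hp hg hpf _ h.2, rfl⟩

theorem WW_le_CC (hp : Odd p) (hg : Gen H) (hpf : PFree H) {i j : Cmp H} (hij : i ≠ j) : WW (KK j) ≤ CC (KK i) := by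
  apply Submodule.span_le.2
  rintro v ⟨f, hf, hR⟩ w g hw hR'
  by_cases hv : v = 0
  · rw [hv, map_zero]
  by_cases hg0 : g = 0
  · rw [hg0]; rfl
  obtain ⟨q, hq, hq1⟩ := R_QQ hp hg hpf hv hf hR
  obtain ⟨r, hr, hr1⟩ := R_QQ hp hg hpf hw hg0 hR'
  by_contra hne
  apply hij
  rw [← hq, ← hr]
  apply cl_eq_of_adj
  left
  rw [hq1, hr1]
  exact hne

theorem inv_WWi (hp : Odd p) (hg : Gen H) (hpf : PFree H) (i : Cmp H) : Inv H (WW (KK i)) := by
  intro v f h u hu
  by_cases hv : v = 0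
  · rw [hv, smul_zero, add_zero]; exact hu
  by_cases hf : f = 0
  · rw [hf, LinearMap.zero_apply, zero_smul, add_zero]; exact hu
  by_cases hi : cl (⟨(v, f), hv, hf, h⟩ : QQ H) = i
  · refine Submodule.add_mem _ hu (Submodule.smul_mem _ _ (mem_WW hf ⟨h.1, ?_⟩))
    rw [← hi]
    exact tv_mem_KK (⟨(v, f), hv, hf, h⟩ : QQ H)
  · have h1 := WW_le_CC hp hg hpf hi hu v f hv ⟨h.1, tv_mem_KK (⟨(v, f), hv, hf, h⟩ : QQ H)⟩
    rw [h1, zero_smul, add_zero]
    exact hu

/-- the common fixed space -/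
def V0 (H : Subgroup (V ≃ₗ[ZMod p] V)) : Submodule (ZMod p) V := ⨅ i : Cmp H, CC (KK i)

theorem inv_V0 : Inv H (V0 H) := by
  intro v f h u hu
  by_cases hv : v = 0
  · rw [hv, smul_zero, add_zero]; exact hu
  by_cases hf : f = 0
  · rw [hf, LinearMap.zero_apply, zero_smul, add_zero]; exact hu
  have h0 : u ∈ CC (KK (cl (⟨(v, f), hv, hf, h⟩ : QQ H))) := (Submodule.mem_iInf _).1 hu _
  have h1 := h0 v f hv ⟨h.1, tv_mem_KK (⟨(v, f), hv, hf, h⟩ : QQ H)⟩
  rw [h1, zero_smul, add_zero]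
  exact hu

theorem map_eq_of_inv (hg : Gen H) {U : Submodule (ZMod p) V} (hU : Inv H U) {h : V ≃ₗ[ZMod p] V} (hh : h ∈ H) :
    U.map (h : V →ₗ[ZMod p] V) = U := by
  apply le_antisymm
  · rintro _ ⟨u, hu, rfl⟩
    exact hg.inv_of hU hh hu
  · intro u hu
    refine ⟨h⁻¹ u, hg.inv_of hU (H.inv_mem hh) hu, ?_⟩
    exact h.apply_symm_apply u

variable [FiniteDimensional (ZMod p) V]

theorem KK_disj (hp : Odd p) (hg : Gen H) (hpf : PFree H) (i : Cmp H) : KK i ⊓ (⨆ j ∈ {j : Cmp H | j ≠ i}, KK j) = ⊥ := by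
  rw [eq_bot_iff]
  rintro x ⟨hx1, hx2⟩
  have hc := KK_conn hp hg hpf i
  have hcompl := hc.isCompl hp
  have h1 : ∀ w ∈ WW (KK i), x w = w := by
    intro w hw
    have h2 : (⨆ j ∈ {j : Cmp H | j ≠ i}, KK j) ≤ FU w := by
      apply iSup₂_le
      intro j hj k hk
      exact (KK_conn hp hg hpf j).gen.fix_C hk (WW_le_CC hp hg hpf hj hw)
    exact h2 hx2
  have h2 : ∀ c ∈ CC (KK i), x c = c := fun c hcc => hc.gen.fix_C hx1 hcc
  rw [Subgroup.mem_bot]
  ext v
  have h3 : v ∈ WW (KK i) ⊔ CC (KK i) := by rw [hcompl.sup_eq_top]; trivial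
  obtain ⟨w, hw, c, hcc, rfl⟩ := Submodule.mem_sup.1 h3
  rw [map_add, h1 w hw, h2 c hcc]
  rfl

/-- the decomposition of the space -/
theorem decomp [Finite (Cmp H)] (hp : Odd p) (hg : Gen H) (hpf : PFree H) :
    (∀ i : Cmp H, Disjoint (WW (KK i)) (V0 H ⊔ ⨆ j ∈ {j : Cmp H | j ≠ i}, WW (KK j))) ∧
    Disjoint (V0 H) (⨆ j : Cmp H, WW (KK j)) ∧ V0 H ⊔ (⨆ j : Cmp H, WW (KK j)) = ⊤ := by
  classical
  have := Fintype.ofFinite (Cmp H)
  have hcompl := fun i : Cmp H => (KK_conn hp hg hpf i).isCompl hp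
  refine ⟨?_, ?_, ?_⟩
  · intro i
    apply (hcompl i).disjoint.mono_right
    apply sup_le
    · exact iInf_le _ i
    · apply iSup₂_le
      intro j hj
      exact WW_le_CC hp hg hpf (Ne.symm hj)
  · -- projections
    choose P hP using fun i : Cmp H => show ∃ P : V →ₗ[ZMod p] V, (∀ w ∈ WW (KK i), P w = w) ∧ (∀ c ∈ CC (KK i), P c = 0) ∧
      ∀ x, P x ∈ WW (KK i) from ⟨(WW (KK i)).subtype ∘ₗ (WW (KK i)).projectionOnto (CC (KK i)) (hcompl i), by
        intro w hw
        rw [LinearMap.comp_apply]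
        have := Submodule.projectionOnto_apply_left (hcompl i) ⟨w, hw⟩
        rw [this]; rfl, by
        intro c hc
        rw [LinearMap.comp_apply]
        have := (Submodule.projectionOnto_apply_eq_zero_iff (hcompl i)).2 hc
        rw [this]; rfl, fun x => Subtype.mem _⟩
    rw [Submodule.disjoint_def]
    intro x hx hx'
    let L : V →ₗ[ZMod p] V := LinearMap.id - ∑ i, P i
    have h1 : (⨆ j : Cmp H, WW (KK j)) ≤ LinearMap.ker L := by
      apply iSup_le
      intro j w hw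
      rw [LinearMap.mem_ker]
      show w - (∑ i, P i) w = 0
      rw [LinearMap.sum_apply, Finset.sum_eq_single j, (hP j).1 w hw, sub_self]
      · intro i _ hij
        exact (hP i).2.1 w (WW_le_CC hp hg hpf hij hw)
      · intro h; exact absurd (Finset.mem_univ _) h
    have h2 := h1 hx'
    rw [LinearMap.mem_ker] at h2
    have h3 : x - (∑ i, P i) x = 0 := h2
    rw [LinearMap.sum_apply, Finset.sum_eq_zero, sub_zero] at h3
    · exact h3
    · intro i _
      exact (hP i).2.1 x ((Submodule.mem_iInf _).1 hx i)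
  · choose P hP using fun i : Cmp H => show ∃ P : V →ₗ[ZMod p] V, (∀ w ∈ WW (KK i), P w = w) ∧ (∀ c ∈ CC (KK i), P c = 0) ∧
      (∀ x, P x ∈ WW (KK i)) ∧ (∀ x, x - P x ∈ CC (KK i)) from by
        refine ⟨(WW (KK i)).subtype ∘ₗ (WW (KK i)).projectionOnto (CC (KK i)) (hcompl i), ?_, ?_, fun x => Subtype.mem _, ?_⟩
        · intro w hw
          rw [LinearMap.comp_apply]
          have := Submodule.projectionOnto_apply_left (hcompl i) ⟨w, hw⟩
          rw [this]; rfl
        · intro c hc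
          rw [LinearMap.comp_apply]
          have := (Submodule.projectionOnto_apply_eq_zero_iff (hcompl i)).2 hc
          rw [this]; rfl
        · intro x
          rw [← Submodule.projectionOnto_apply_eq_zero_iff (hcompl i), map_sub]
          rw [LinearMap.comp_apply]
          have := Submodule.projectionOnto_apply_left (hcompl i) ((WW (KK i)).projectionOnto (CC (KK i)) (hcompl i) x)
          rw [Submodule.subtype_apply, this, sub_self]
    rw [eq_top_iff]
    intro x _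
    have h1 : x = (x - ∑ i, P i x) + ∑ i, P i x := by abel
    rw [h1]
    refine Submodule.add_mem_sup ?_ ?_
    · refine (Submodule.mem_iInf _).2 (fun i => ?_)
      rw [← Finset.add_sum_erase _ _ (Finset.mem_univ i), ← sub_sub]
      refine Submodule.sub_mem _ ((hP i).2.2.2 x) (Submodule.sum_mem _ ?_)
      intro j hj
      exact WW_le_CC hp hg hpf (Finset.ne_of_mem_erase hj).symm ((hP j).2.2.1 x)
    · refine Submodule.sum_mem _ ?_
      intro j _
      exact (le_iSup (fun j : Cmp H => WW (KK j)) j) ((hP j).2.2.1 x)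

end Cfsg.Agent.H93.McL
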